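import Cfsg.Agent.TransferThree23.Reduction
import Mathlib.GroupTheory.Focal

/-!
`P ∩ G'` is the product of `P ∩ C(Z(P))'` and `P ∩ N(K(P))'` for an odd prime.
-/

set_option autoImplicit false

open Cfsg
open scoped commutatorElement
open CfsgLib.TwoSubgroup16 hiding Core

namespace CfsgLib.TransferThree23

universe u

variable {G : Type u} [Group G] [Finite G] {p : ℕ} [Fact p.Prime]

theorem inf_commutator_normalizer_le (P : Sylow p G) (K : Subgroup G)
    (hK : Subgroup.normalizer ((P : Subgroup G) : Set G) ≤ Subgroup.normalizer (K : Set G)) :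
    (P : Subgroup G) ⊓
        ⁅Subgroup.normalizer (((P : Subgroup G) ⊓ Subgroup.centralizer ((P : Subgroup G) : Set G) : Subgroup G) : Set G),
          Subgroup.normalizer (((P : Subgroup G) ⊓ Subgroup.centralizer ((P : Subgroup G) : Set G) : Subgroup G) : Set G)⁆ ≤
      ((P : Subgroup G) ⊓
        ⁅Subgroup.centralizer (((P : Subgroup G) ⊓ Subgroup.centralizer ((P : Subgroup G) : Set G) : Subgroup G) : Set G),
          Subgroup.centralizer (((P : Subgroup G) ⊓ Subgroup.centralizer ((P : Subgroup G) : Set G) : Subgroup G) : Set G)⁆) ⊔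
      ((P : Subgroup G) ⊓ ⁅Subgroup.normalizer (K : Set G), Subgroup.normalizer (K : Set G)⁆) := by
  set Z := (P : Subgroup G) ⊓ Subgroup.centralizer ((P : Subgroup G) : Set G) with hZ
  set N := Subgroup.normalizer (Z : Set G) with hN
  set C := Subgroup.centralizer (Z : Set G) with hC
  have hPC : (P : Subgroup G) ≤ C := fun x hx => Subgroup.mem_centralizer_iff.2 fun z hz =>
    (Subgroup.mem_centralizer_iff.1 hz.2 x hx).symm
  have hPN : (P : Subgroup G) ≤ N := fun x hx => CfsgLib.PushingUp44.mem_normalizer_of_cj_eq (by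
    refine Subgroup.eq_of_le_of_card_ge (fun z hz => ?_) ?_
    · rw [CfsgLib.PushingUp44.mem_cj] at hz
      have h1 := Subgroup.mem_centralizer_iff.1 hz.2 x hx
      have e : z = x⁻¹ * z * x := by
        calc z = x * (x⁻¹ * z * x) * x⁻¹ := by group
          _ = _ := by rw [h1, mul_inv_cancel_right]
      rw [e]; exact hz
    · rw [CfsgLib.PushingUp44.cj,
        Subgroup.card_map_of_injective (f := (MulAut.conj x).toMonoidHom) (MulAut.conj x).injective])
  have hcN : ∀ l ∈ N, ∀ c ∈ C, l * c * l⁻¹ ∈ C := fun l hl c hc =>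
    CfsgLib.TwoSubgroup16.conj_mem_centralizer hc hl
  haveI : (C.subgroupOf N).Normal := ⟨fun c hc l => by
    rw [Subgroup.mem_subgroupOf] at hc ⊢
    exact hcN l l.2 c hc⟩
  let P' : Sylow p ↥N := P.subtype hPN
  have hP' : (P' : Subgroup ↥N) = (P : Subgroup G).subgroupOf N := rfl
  have hfr := Sylow.normalizer_sup_eq_top' (N := C.subgroupOf N) P' (hP'.le.trans (Subgroup.comap_mono hPC))
  intro x hx
  set R := ((P : Subgroup G) ⊓ ⁅C, C⁆) ⊔
    ((P : Subgroup G) ⊓ ⁅Subgroup.normalizer (K : Set G), Subgroup.normalizer (K : Set G)⁆) with hR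
  have hx' : (⟨x, hPN hx.1⟩ : ↥N) ∈ (P' : Subgroup ↥N).focalSubgroup := by
    rw [← Subgroup.commutator_inf_eq_focalSubgroup, commutator_def]
    refine ⟨?_, hx.1⟩
    apply (Subgroup.mem_map_iff_mem N.subtype_injective).1
    rw [Subgroup.map_commutator, ← MonoidHom.range_eq_map, Subgroup.range_subtype]
    exact hx.2
  suffices h : (P' : Subgroup ↥N).focalSubgroup ≤ R.subgroupOf N by exact h hx'
  rw [Subgroup.focalSubgroup_def, Subgroup.closure_le]
  rintro w ⟨hw, a, ha, u, rfl⟩
  have hu : u ∈ Subgroup.normalizer ((P' : Subgroup ↥N) : Set ↥N) ⊔ C.subgroupOf N := hfr ▸ Subgroup.mem_top u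
  rw [← SetLike.mem_coe, Subgroup.mul_normal] at hu
  obtain ⟨l, hl, c, hc, rfl⟩ := hu
  rw [SetLike.mem_coe, Subgroup.mem_subgroupOf]
  have hlP : (l : G) ∈ Subgroup.normalizer ((P : Subgroup G) : Set G) := by
    rw [Subgroup.mem_normalizer_iff]
    intro y
    have key := Subgroup.mem_normalizer_iff.1 hl
    constructor
    · intro hy
      exact (key ⟨y, hPN hy⟩).1 hy
    · intro hy
      have hyN : y ∈ N := by
        have := mul_mem (mul_mem (inv_mem l.2) (hPN hy)) l.2
        simpa [mul_assoc] using this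
      exact (key ⟨y, hyN⟩).2 hy
  set a' : G := (a : G) with ha'
  have haP : a' ∈ (P : Subgroup G) := ha
  have hwP : ⁅a', (l : G) * c⁆ ∈ (P : Subgroup G) := hw
  show ⁅a', (l : G) * c⁆ ∈ R
  have e : ⁅a', (l : G) * c⁆ = ⁅a', (l : G)⁆ * ((l : G) * ⁅a', (c : G)⁆ * (l : G)⁻¹) :=
    CfsgLib.PushingUp44.comm_mul_right _ _ _
  have h1 : ⁅a', (l : G)⁆ ∈ (P : Subgroup G) := by
    rw [commutatorElement_def, show a' * l * a'⁻¹ * (l : G)⁻¹ = a' * (l * a'⁻¹ * (l : G)⁻¹) by group]
    exact mul_mem haP ((Subgroup.mem_normalizer_iff.1 hlP _).1 (inv_mem haP))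
  have h2 : (l : G) * ⁅a', (c : G)⁆ * (l : G)⁻¹ ∈ (P : Subgroup G) := by
    have := mul_mem (inv_mem h1) hwP
    rwa [e, inv_mul_cancel_left] at this
  have h3 : ⁅a', (c : G)⁆ ∈ ⁅C, C⁆ := Subgroup.commutator_mem_commutator (hPC haP) hc
  have h4 : (l : G) * ⁅a', (c : G)⁆ * (l : G)⁻¹ ∈ ⁅C, C⁆ := by
    rw [show (l : G) * ⁅a', (c : G)⁆ * (l : G)⁻¹ = ⁅(l : G) * a' * (l : G)⁻¹, (l : G) * c * (l : G)⁻¹⁆ by
      simp [commutatorElement_def, mul_assoc]]
    exact Subgroup.commutator_mem_commutator (hcN l l.2 _ (hPC haP)) (hcN l l.2 _ hc)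
  rw [e]
  exact mul_mem (Subgroup.mem_sup_right ⟨h1, Subgroup.commutator_mem_commutator
    (hK (Subgroup.le_normalizer haP)) (hK hlP)⟩) (Subgroup.mem_sup_left ⟨h2, h4⟩)

theorem inf_commutator_le (hp : p ≠ 2) (P : Sylow p G) :
    (P : Subgroup G) ⊓ commutator G ≤
      ((P : Subgroup G) ⊓
        ⁅Subgroup.centralizer (((P : Subgroup G) ⊓ Subgroup.centralizer ((P : Subgroup G) : Set G) : Subgroup G) : Set G),
          Subgroup.centralizer (((P : Subgroup G) ⊓ Subgroup.centralizer ((P : Subgroup G) : Set G) : Subgroup G) : Set G)⁆) ⊔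
      ((P : Subgroup G) ⊓ ⁅Subgroup.normalizer (commonIn (baumannSubgroupOf p (P : Subgroup G)) : Set G),
        Subgroup.normalizer (commonIn (baumannSubgroupOf p (P : Subgroup G)) : Set G)⁆) := by
  rw [commutator_def]
  refine (transferLe_twoFunctors hp (Nat.card G) G le_rfl P).trans (iSup₂_le ?_)
  rintro _ ⟨_, ⟨W, hW, rfl⟩, rfl⟩
  simp only [top_inf_eq]
  rcases hW with rfl | rfl
  · rw [induced_cenFunctor]
    exact inf_commutator_normalizer_le P _
      ((charIn_common _).trans (charIn_baumann (p := p) _)).normalizer_le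
  · rw [induced_kFunctor]
    exact le_sup_right

/-- The product form. -/
theorem exists_product (hp : p ≠ 2) {S : Type u} [Group S] (τ : S →* G) (hτ : Function.Injective τ)
    (P : Sylow p G) (hP : (P : Subgroup G) = τ.range) (g : G) :
    g ∈ τ.range ⊓ commutator G ↔
      ∃ a ∈ τ.range ⊓ ⁅Subgroup.centralizer ((τ.range ⊓ Subgroup.centralizer (τ.range : Set G) : Subgroup G) : Set G),
          Subgroup.centralizer ((τ.range ⊓ Subgroup.centralizer (τ.range : Set G) : Subgroup G) : Set G)⁆,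
        ∃ b ∈ τ.range ⊓ ⁅Subgroup.normalizer (((kFunctor p S).map τ : Subgroup G) : Set G),
            Subgroup.normalizer (((kFunctor p S).map τ : Subgroup G) : Set G)⁆, g = a * b := by
  have hK : (kFunctor p S).map τ = commonIn (baumannSubgroupOf p (P : Subgroup G)) := by
    rw [kFunctor, ← commonIn_map τ hτ, ← CfsgLib.TwoSubgroup16.baumannSubgroupOf_map τ hτ,
      ← MonoidHom.range_eq_map, hP]
  rw [hK, ← hP]
  constructor
  · intro hg
    have h := inf_commutator_le hp P hg
    set KP := commonIn (baumannSubgroupOf p (P : Subgroup G)) with hKP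
    have hAB : ((P : Subgroup G) ⊓
        ⁅Subgroup.centralizer (((P : Subgroup G) ⊓ Subgroup.centralizer ((P : Subgroup G) : Set G) : Subgroup G) : Set G),
          Subgroup.centralizer (((P : Subgroup G) ⊓ Subgroup.centralizer ((P : Subgroup G) : Set G) : Subgroup G) : Set G)⁆) ≤
      Subgroup.normalizer (((P : Subgroup G) ⊓
        ⁅Subgroup.normalizer (KP : Set G), Subgroup.normalizer (KP : Set G)⁆ : Subgroup G) : Set G) := by
      refine CfsgLib.PushingUp44.le_normalizer_of_conj_le fun k hk z hz => ?_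
      have hkN : k ∈ Subgroup.normalizer (KP : Set G) :=
        ((charIn_common _).trans (charIn_baumann (p := p) _)).normalizer_le (Subgroup.le_normalizer hk.1)
      rw [CfsgLib.PushingUp44.mem_cj] at hz
      obtain ⟨hk1, -⟩ := Subgroup.mem_inf.1 hk
      replace hz := Subgroup.mem_inf.1 hz
      have h1 := mul_mem (mul_mem hk1 hz.1) (inv_mem hk1)
      have h2 := (Subgroup.mem_normalizer_iff.1 (CfsgLib.PushingUp44.mem_normalizer_of_cj_eq
        (x := k) (by rw [CfsgLib.PushingUp44.cj_commutator, CfsgLib.PushingUp44.cj_eq_of_le_normalizer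
          (Subgroup.le_normalizer hkN)])) _).1 hz.2
      rw [show k * (k⁻¹ * z * k) * k⁻¹ = z by group] at h1 h2
      exact ⟨h1, h2⟩
    obtain ⟨a, ha, b, hb, hab⟩ := CfsgLib.PushingUp44.exists_mul_of_mem_sup hAB h
    exact ⟨a, ha, b, hb, hab.symm⟩
  · rintro ⟨a, ha, b, hb, rfl⟩
    exact ⟨mul_mem ha.1 hb.1, mul_mem (Subgroup.commutator_mono le_top le_top ha.2)
      (Subgroup.commutator_mono le_top le_top hb.2)⟩

end CfsgLib.TransferThree23
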