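import Cfsg.Agent.TransferThree23.Mid
import Cfsg.Agent.TransferThree23.Lin

/-!
One block of `L`: a minimal subgroup over `B(T)` outside `M`, and an element of `B(T)` acting quadratically on it.
-/

set_option autoImplicit false
set_option maxHeartbeats 1600000

open Cfsg
open CfsgLib.ConjFunctor (conjOf conjOf_conjOf conjOf_one card_conjOf conjOf_mono conj_mem_conjOf mem_normalizer_iff_conjOf conjOf_le_iff mem_conjOf SylowIn exists_conj_le_of_sylowIn)
open scoped MatrixGroups commutatorElement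
open CfsgLib.TwoSubgroup16 hiding Core

namespace CfsgLib.TransferThree23

universe u

variable {X : Type u} [Group X] [Finite X] {p : ℕ} [Fact p.Prime] {T : Sylow p X} {M : Subgroup X}
  {r : ℕ} {E N : Fin r → Subgroup X}

theorem quad_pow {G : Type*} [Group G] {U W : Subgroup G} [W.Normal] (hU : U.Normal) {y : G}
    (h : ∀ u ∈ U, ⁅⁅u, y⁆, y⁆ ∈ W) {u : G} (hu : u ∈ U) (a b : ℕ) : ⁅⁅u, y ^ a⁆, y ^ b⁆ ∈ W := by
  have hf : ∀ g : G, QuotientGroup.mk' W g = 1 ↔ g ∈ W := fun g => QuotientGroup.eq_one_iff g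
  set Z := QuotientGroup.mk' W y with hZ
  have hUy : ∀ u ∈ U, Commute ⁅QuotientGroup.mk' W u, Z⁆ Z := by
    intro u hu
    refine commutatorElement_eq_one_iff_mul_comm.mp ?_
    rw [hZ, ← map_commutatorElement, ← map_commutatorElement, hf]
    exact h u hu
  rw [← hf, map_commutatorElement, map_commutatorElement, map_pow, map_pow, ← hZ,
    commutatorElement_eq_one_iff_mul_comm]
  refine (Commute.pow_right ?_ b).eq
  clear b
  induction a generalizing u with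
  | zero => simp
  | succ a ih =>
    rw [pow_succ, CfsgLib.PushingUp44.comm_mul_right]
    refine (ih hu).mul_left ?_
    refine Commute.mul_left (Commute.mul_left ?_ (hUy u hu)) ?_
    · exact Commute.pow_self _ _
    · exact (Commute.pow_self _ _).inv_left

namespace Core

variable (h : Core p T M) (D : Blocks p (vMod p (T : Subgroup X)) (T : Subgroup X) E N)

include h D

theorem normalizer_UU_sup_le :
    Subgroup.normalizer ((UU (T : Subgroup X) E ⊔ Subgroup.centralizer (vMod p (T : Subgroup X) : Set X) :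
      Subgroup X) : Set X) ≤ M := by
  haveI := D.iSup_normal.1
  set C := Subgroup.centralizer (vMod p (T : Subgroup X) : Set X) with hC
  haveI hCn : C.Normal := inferInstance
  refine h.uniq _ (fun t ht => mem_normalizer_iff_conjOf.mpr (Subgroup.eq_of_le_of_card_ge ?_ (card_conjOf _ _).ge))
    fun htop => h.thompson_not_le' D ?_
  · show Subgroup.map _ (UU (T : Subgroup X) E ⊔ C) ≤ _
    rw [Subgroup.map_sup]
    refine sup_le_sup (conjOf_le_iff.mpr fun x hx => ?_) (conjOf_le_iff.mpr fun x hx => hCn.conj_mem x hx t)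
    obtain ⟨hxT, hxE⟩ := (h.mem_UU_iff D).mp hx
    exact (h.mem_UU_iff D).mpr ⟨mul_mem (mul_mem ht hxT) (inv_mem ht), D.iSup_normal.1.conj_mem x hxE t⟩
  · haveI := Subgroup.normalizer_eq_top_iff.mp htop
    exact le_trans (le_inf D.UU_le_T le_sup_left)
      (h.inf_le_pCore (H := UU (T : Subgroup X) E ⊔ C) (sup_le (D.UU_le_T.trans h.T_le) h.centralizer_vMod_le))

/-- An element of `E i · U` normalizing `T ∩ E i` on the block lies in `M`. -/
theorem mem_M_of_normalizes {i : Fin r} {g : X} (hg : g ∈ E i ⊔ UU (T : Subgroup X) E)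
    (hnorm : ∀ x ∈ (T : Subgroup X) ⊓ E i, ∃ u ∈ (T : Subgroup X) ⊓ E i, SameOn (N i) (g * x * g⁻¹) u) :
    g ∈ M := by
  set C := Subgroup.centralizer (vMod p (T : Subgroup X) : Set X) with hC
  haveI hCn : C.Normal := inferInstance
  rw [← SetLike.mem_coe, Subgroup.coe_mul_of_right_le_normalizer_left _ _ (D.UU_le_normalizer i)] at hg
  obtain ⟨e, he, u, hu, rfl⟩ := hg
  refine mul_mem (h.normalizer_UU_sup_le D (mem_normalizer_iff_conjOf.mpr
    (Subgroup.eq_of_le_of_card_ge ?_ (card_conjOf _ _).ge))) (h.T_le (D.UU_le_T hu))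
  show Subgroup.map _ (UU (T : Subgroup X) E ⊔ C) ≤ _
  rw [Subgroup.map_sup]
  refine sup_le ?_ ((conjOf_le_iff.mpr fun x hx => hCn.conj_mem x hx e).trans le_sup_right)
  rw [UU, Subgroup.map_iSup]
  refine iSup_le fun j => conjOf_le_iff.mpr fun x hx => ?_
  obtain ⟨hxT, hxE⟩ := Subgroup.mem_inf.mp hx
  have heS : e ∈ ⨆ k, E k := le_iSup E i he
  have hxS : x ∈ ⨆ k, E k := le_iSup E j hxE
  have hexS : e * x * e⁻¹ ∈ ⨆ k, E k := mul_mem (mul_mem heS hxS) (inv_mem heS)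
  by_cases hji : j = i
  · subst hji
    have huN := D.UU_le_normalizer j hu
    have hx' : u⁻¹ * x * u ∈ (T : Subgroup X) ⊓ E j := Subgroup.mem_inf.mpr
      ⟨mul_mem (mul_mem (inv_mem (D.UU_le_T hu)) hxT) (D.UU_le_T hu),
        (Subgroup.mem_normalizer_iff''.mp huN x).mp hxE⟩
    obtain ⟨u', hu', hsame⟩ := hnorm _ hx'
    rw [show e * u * (u⁻¹ * x * u) * (e * u)⁻¹ = e * x * e⁻¹ by group] at hsame
    obtain ⟨hu'T, hu'E⟩ := Subgroup.mem_inf.mp hu'
    have h1 : u'⁻¹ * (e * x * e⁻¹) ∈ C := by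
      refine D.mem_centralizer_V (mul_mem (inv_mem (le_iSup E j hu'E)) hexS) fun l => ?_
      by_cases hl : l = j
      · exact hl ▸ hsame.inv_mul_mem
      · exact mul_mem (inv_mem (D.cross l j hl hu'E))
          (D.cross l j hl (mul_mem (mul_mem he hxE) (inv_mem he)))
    have h2 := mul_mem (Subgroup.mem_sup_left (T := C) (le_iSup (fun k => (T : Subgroup X) ⊓ E k) j hu'))
      (Subgroup.mem_sup_right (S := UU (T : Subgroup X) E) h1)
    rwa [mul_inv_cancel_left] at h2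
  · have h1 : e * x * e⁻¹ * x⁻¹ ∈ C := by
      refine D.mem_centralizer_V (mul_mem hexS (inv_mem hxS)) fun l => ?_
      by_cases hl : l = i
      · subst hl
        have hxc := D.cross l j (Ne.symm hji) hxE
        exact mul_mem (conj_mem_centralizer hxc (D.E_norm l he)) (inv_mem hxc)
      · have hec := D.cross l i hl he
        have h2 := mul_mem hec (conj_mem_centralizer (inv_mem hec) (D.iSup_E_le_normalizer l hxS))
        simpa [mul_assoc] using h2
    have h2 := mul_mem (Subgroup.mem_sup_right (S := UU (T : Subgroup X) E) h1)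
      (Subgroup.mem_sup_left (T := C) (le_iSup (fun k => (T : Subgroup X) ⊓ E k) j hx))
    rwa [inv_mul_cancel_right] at h2

/-- A minimal subgroup above `B(T)` outside `M` in one block of `L`. -/
theorem exists_pushing :
    ∃ Y : Subgroup X, baumannSubgroupOf p (T : Subgroup X) ≤ Y ∧ Y ≤ lMod p (T : Subgroup X) ∧ ¬ Y ≤ M ∧
      ¬ p ∣ (baumannSubgroupOf p (T : Subgroup X) ⊔ pCore p X).relIndex (Y ⊔ pCore p X) ∧
      ∃ YS : Set X, (∀ y ∈ YS, y ∈ baumannSubgroupOf p (T : Subgroup X)) ∧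
      (∀ g ∈ Y ⊔ pCore p X, g ∉ M → ∃ y ∈ YS, g⁻¹ * y * g ∉ M) ∧
      ∀ U W : Subgroup ↥Y, IsChiefFactor U W → U ≤ pCore p ↥Y → ∀ y : ↥Y, (y : X) ∈ YS →
        ∀ u ∈ U, ∀ a b : ℕ, ⁅⁅u, y ^ a⁆, y ^ b⁆ ∈ W := by
  classical
  haveI := CfsgLib.ConjFunctor.pCore_normal (G := X) p
  set i₀ : Fin r := ⟨0, D.pos⟩
  set B := baumannSubgroupOf p (T : Subgroup X) with hB
  set L := lMod p (T : Subgroup X) with hL
  set C := Subgroup.centralizer (vMod p (T : Subgroup X) : Set X) with hC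
  set L₁ := (L ⊓ E i₀) ⊔ B with hL₁
  have hBT : B ≤ (T : Subgroup X) := CfsgLib.BaumannBlock.baumannSubgroupOf_le _
  have hJB : thompsonSubgroupOf p (T : Subgroup X) ≤ B := CfsgLib.BaumannBlock.thompsonSubgroupOf_le_baumann _
  have hL₁M : ¬ L₁ ≤ M := by
    intro hle
    have hEi : E i₀ ≤ M := by
      intro e he
      obtain ⟨k, hk, hke⟩ := h.covers D (H := L) (hJB.trans (baumann_le_lMod _)) i₀ he
      obtain ⟨hkL, hkE⟩ := Subgroup.mem_inf.mp hk
      have h1 : e⁻¹ * k ∈ C := by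
        refine D.mem_centralizer_V (mul_mem (inv_mem (le_iSup E i₀ he)) (le_iSup E i₀ hkE)) fun l => ?_
        by_cases hl : l = i₀
        · exact hl ▸ hke.inv_mul_mem
        · exact mul_mem (inv_mem (D.cross l i₀ hl he)) (D.cross l i₀ hl hkE)
      have h2 := mul_mem (hle (Subgroup.mem_sup_left hk)) (inv_mem (h.centralizer_vMod_le h1))
      simpa using h2
    refine h.M_ne_top (top_le_iff.mp (D.top.ge.trans (sup_le (iSup_le fun j x hx => ?_) h.T_le)))
    obtain ⟨t, ht, hE, -⟩ := D.trans i₀ j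
    have h1 : t⁻¹ * x * t ∈ E i₀ := mem_conjOf.mp (hE.ge hx)
    have h2 := mul_mem (mul_mem (h.T_le ht) (hEi h1)) (inv_mem (h.T_le ht))
    simpa [mul_assoc] using h2
  obtain ⟨Y, ⟨hBY, hYL₁, hYM⟩, hmin⟩ := (Set.toFinite {Y : Subgroup X | B ≤ Y ∧ Y ≤ L₁ ∧ ¬ Y ≤ M}).exists_minimal
    ⟨L₁, le_sup_right, le_rfl, hL₁M⟩
  have hBU : B ≤ UU (T : Subgroup X) E := h.baumann_le_UU D
  have hYL : Y ≤ L := hYL₁.trans (sup_le inf_le_left (baumann_le_lMod _))
  have hYE : Y ≤ E i₀ ⊔ UU (T : Subgroup X) E :=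
    hYL₁.trans (sup_le (inf_le_right.trans le_sup_left) (hBU.trans le_sup_right))
  have hYS : Y ≤ ⨆ j, E j := hYL.trans (h.lMod_le_iSup D)
  -- the representation on the block
  obtain ⟨F, _, _, _, ⟨Cd⟩⟩ := exists_coord (T : Subgroup X) (D.nat i₀)
  have hρ : ∀ e e' : ↥(E i₀), SameOn (N i₀) (e : X) e' → Cd.ρ e = Cd.ρ e' := by
    intro e e' hee
    refine Subtype.ext (Matrix.ext_of_mulVec_single fun k => ?_)
    obtain ⟨x, hx⟩ := Cd.crd.surjective (Pi.single k 1)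
    rw [← hx]
    have hmem : (e' : X) * x * (e' : X)⁻¹ ∈ N i₀ := (Subgroup.mem_normalizer_iff.mp (D.E_norm i₀ e'.2) _).mp x.2
    rw [← Cd.act_ρ e' x ⟨_, hmem⟩ rfl, ← Cd.act_ρ e x ⟨_, hmem⟩ (hee x x.2).symm]
  have hρ' : ∀ e e' : ↥(E i₀), Cd.ρ e = Cd.ρ e' → SameOn (N i₀) (e : X) e' := by
    intro e e' hee x hx
    have hm : ∀ a : ↥(E i₀), (a : X) * x * (a : X)⁻¹ ∈ N i₀ := fun a =>
      (Subgroup.mem_normalizer_iff.mp (D.E_norm i₀ a.2) _).mp hx
    have h1 := Cd.act_ρ e ⟨x, hx⟩ ⟨_, hm e⟩ rfl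
    rw [hee, ← Cd.act_ρ e' ⟨x, hx⟩ ⟨_, hm e'⟩ rfl] at h1
    exact congrArg Subtype.val (Cd.crd.injective h1)
  have hex : ∀ g : ↥(⨆ j, E j), ∃ e : ↥(E i₀), SameOn (N i₀) (g : X) e := fun g => by
    obtain ⟨e, he, hge⟩ := D.exists_sameOn i₀ g.2
    exact ⟨⟨e, he⟩, hge⟩
  choose sec hsec using hex
  have hΦ : ∀ (g : ↥(⨆ j, E j)) (e : ↥(E i₀)), SameOn (N i₀) (g : X) e → Cd.ρ (sec g) = Cd.ρ e :=
    fun g e hge => hρ _ _ fun x hx => (hsec g x hx).symm.trans (hge x hx)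
  let Φ : ↥(⨆ j, E j) →* SL(2, F) := MonoidHom.mk' (fun g => Cd.ρ (sec g)) fun g g' => by
    show Cd.ρ (sec (g * g')) = Cd.ρ (sec g) * Cd.ρ (sec g')
    rw [← map_mul]
    refine hΦ (g * g') (sec g * sec g') fun x hx => ?_
    have h1 : (sec g' : X) * x * (sec g' : X)⁻¹ ∈ N i₀ :=
      (Subgroup.mem_normalizer_iff.mp (D.E_norm i₀ (sec g').2) x).mp hx
    calc (g : X) * g' * x * ((g : X) * g')⁻¹ = (g : X) * ((g' : X) * x * (g' : X)⁻¹) * (g : X)⁻¹ := by group
      _ = (g : X) * ((sec g' : X) * x * (sec g' : X)⁻¹) * (g : X)⁻¹ := by rw [hsec g' x hx]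
      _ = (sec g : X) * ((sec g' : X) * x * (sec g' : X)⁻¹) * (sec g : X)⁻¹ := hsec g _ h1
      _ = (sec g : X) * sec g' * x * ((sec g : X) * sec g')⁻¹ := by group
  let π : ↥(⨆ j, E j) →* Matrix.ProjectiveSpecialLinearGroup (Fin 2) F :=
    (QuotientGroup.mk' (Subgroup.center SL(2, F))).comp Φ
  have hπe : ∀ (g : ↥(⨆ j, E j)) (e : ↥(E i₀)), SameOn (N i₀) (g : X) e →
      π g = QuotientGroup.mk' (Subgroup.center SL(2, F)) (Cd.ρ e) := fun g e hge =>
    congrArg (QuotientGroup.mk' (Subgroup.center SL(2, F))) (hΦ g e hge)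
  set P := (((T : Subgroup X) ⊓ E i₀).subgroupOf (E i₀)).map
    ((QuotientGroup.mk' (Subgroup.center SL(2, F))).comp Cd.ρ) with hP
  have hπT : ∀ g : ↥(⨆ j, E j), (g : X) ∈ (T : Subgroup X) → π g ∈ P := by
    intro g hgT
    obtain ⟨e, he, hge⟩ := D.exists_sameOn i₀ g.2
    obtain ⟨u, hu, hgu⟩ := (D.hyp i₀).inner_of_sameOn hgT (D.iSup_E_le_normalizer i₀ g.2) he hge
    exact ⟨⟨u, (Subgroup.mem_inf.mp hu).2⟩, hu, (hπe g _ hgu).symm⟩
  have hPB : ∀ q ∈ P, ∃ y : ↥(⨆ j, E j), (y : X) ∈ B ∧ π y = q := by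
    rintro q ⟨u, hu, rfl⟩
    obtain ⟨j, hj, hjE, hju⟩ := h.exists_thompson_sameOn D (i := i₀) (u := (u : X)) hu
    exact ⟨⟨j, le_iSup E i₀ hjE⟩, hJB hj, hπe _ u hju⟩
  have hπM : ∀ g : ↥(⨆ j, E j), (g : X) ∈ E i₀ ⊔ UU (T : Subgroup X) E →
      (∀ q ∈ P, π g * q * (π g)⁻¹ ∈ P) → (g : X) ∈ M := by
    intro g hg hnorm
    refine h.mem_M_of_normalizes D hg fun x hx => ?_
    obtain ⟨hxT, hxE⟩ := Subgroup.mem_inf.mp hx
    set x' : ↥(⨆ j, E j) := ⟨x, le_iSup E i₀ hxE⟩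
    have h1 : π (g * x' * g⁻¹) ∈ P := by
      rw [map_mul, map_mul, map_inv]
      exact hnorm _ (hπT x' hxT)
    obtain ⟨u, hu, hue⟩ := h1
    refine ⟨u, hu, ?_⟩
    obtain ⟨k, hk⟩ := T.2 ⟨x, hxT⟩
    obtain ⟨l, hl⟩ := T.2 ⟨u, (Subgroup.mem_inf.mp hu).1⟩
    have hxk : x' ^ p ^ k = 1 := Subtype.ext (by simpa [x'] using congrArg Subtype.val hk)
    have hul : u ^ p ^ l = 1 := Subtype.ext (by simpa using congrArg Subtype.val hl)
    have heq : Cd.ρ (sec (g * x' * g⁻¹)) = Cd.ρ u := eq_of_mk_eq h.ne_two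
      (show Φ (g * x' * g⁻¹) ^ p ^ k = 1 by rw [← map_pow, conj_pow, hxk, mul_one, mul_inv_cancel, map_one])
      (by rw [← map_pow, hul, map_one]) hue.symm
    exact fun z hz => (hsec (g * x' * g⁻¹) z hz).trans (hρ' _ _ heq z hz)
  -- the Sylow subgroup of the quotient
  have hPp : IsPGroup p P := ((T.2.to_le inf_le_left).comap_subtype).map _
  have hPi : ¬ p ∣ P.index := fun hd => D.sylow i₀ (hd.trans (Subgroup.index_map_dvd _
    ((QuotientGroup.mk'_surjective _).comp Cd.ρ_surj)))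
  obtain ⟨n, -, hn⟩ := FiniteField.card F p
  -- the map on `Y`
  let πY : ↥Y →* Matrix.ProjectiveSpecialLinearGroup (Fin 2) F := π.comp (Subgroup.inclusion hYS)
  have hPY : P ≤ πY.range := by
    intro q hq
    obtain ⟨y, hy, rfl⟩ := hPB q hq
    exact ⟨⟨y, hBY hy⟩, congrArg π (Subtype.ext rfl)⟩
  have hsurj : Function.Surjective πY := by
    obtain ⟨g, hgY, hgM⟩ := SetLike.not_le_iff_exists.mp hYM
    have hnot : πY ⟨g, hgY⟩ ∉ Subgroup.normalizer (P : Set _) := fun hn =>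
      hgM (hπM ⟨g, hYS hgY⟩ (hYE hgY) fun q hq => (Subgroup.mem_normalizer_iff.mp hn q).mp hq)
    have htop := CfsgLib.PushingUp44.sylow_sup_eq_top (F := F) n.pos hn (hPp.toSylow hPi) (πY ⟨g, hgY⟩) hnot
    rw [IsPGroup.toSylow_coe] at htop
    refine MonoidHom.range_eq_top.mp (top_le_iff.mp (htop.ge.trans (sup_le hPY ?_)))
    rintro _ ⟨q, hq, rfl⟩
    exact mul_mem (mul_mem ⟨_, rfl⟩ (hPY hq)) (inv_mem ⟨_, rfl⟩)
  -- `B` is a Sylow subgroup of `Y`
  have hBrel : ¬ p ∣ B.relIndex Y := by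
    intro hd
    refine CfsgLib.Alperin.not_dvd_relIndex_inf T (N := ⊤) (W := L)
      (by rw [inf_top_eq, Subgroup.relIndex_top_right]; exact T.not_dvd_index) le_top
      (by rw [Subgroup.normalizer_eq_top]) ?_
    rw [h.inf_lMod D]
    exact hd.trans ⟨_, (Subgroup.relIndex_mul_relIndex _ _ _ hBY hYL).symm⟩
  have hBp : IsPGroup p (B.subgroupOf Y) := (T.2.to_le hBT).comap_subtype
  let S : Sylow p ↥Y := hBp.toSylow hBrel
  have hS : (S : Subgroup ↥Y) = B.subgroupOf Y := IsPGroup.toSylow_coe _ _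
  have hrelQ : ¬ p ∣ (B ⊔ pCore p X).relIndex (Y ⊔ pCore p X) := by
    set R := B ⊔ pCore p X with hR
    set f := QuotientGroup.mk' (pCore p X)
    have hRf : (R.map f).comap f = R := by
      rw [Subgroup.comap_map_eq, QuotientGroup.ker_mk', sup_eq_left.mpr le_sup_right]
    have hYf : (Y ⊔ pCore p X).map f = Y.map f := by
      rw [Subgroup.map_sup, (Subgroup.map_eq_bot_iff _).mpr (QuotientGroup.ker_mk' _).ge, sup_bot_eq]
    have hrel : R.relIndex (Y ⊔ pCore p X) = R.relIndex Y := by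
      rw [← hRf, Subgroup.relIndex_comap, Subgroup.relIndex_comap, hYf]
    rw [hrel]
    exact fun hd => hBrel (hd.trans (Subgroup.relIndex_dvd_of_le_left _ le_sup_left))
  -- pushing up
  set Q₀ := pCore p X ⊓ Subgroup.centralizer (wMod p (T : Subgroup X) : Set X) with hQ₀
  have hQ₀B : Q₀ ≤ B := (h.baumann_inf_pCore D).ge.trans inf_le_left
  haveI : Q₀.Normal := inferInstance
  have hQ₀p : Q₀.subgroupOf Y ≤ pCore p ↥Y := CfsgLib.Constrained.le_pCore inferInstance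
    ((CfsgLib.ConjFunctor.isPGroup_pCore (G := X) p).to_le inf_le_left).comap_subtype
  have hE₁ : Subgroup.centralizer (pCore p ↥Y : Set ↥Y) ≤ pCore p ↥Y := by
    intro y hy
    refine hQ₀p ((h.centralizer_lMod_le D) ⟨hYL y.2, Subgroup.mem_centralizer_iff.mpr fun q hq => ?_⟩)
    exact congrArg Subtype.val (Subgroup.mem_centralizer_iff.mp hy (⟨q, hBY (hQ₀B hq)⟩ : ↥Y) (hQ₀p hq))
  have hE₂ : ∃! M' : Subgroup ↥Y, IsCoatom M' ∧ (S : Subgroup ↥Y) ≤ M' := by
    have hne : M.subgroupOf Y ≠ ⊤ := fun e => hYM (Subgroup.subgroupOf_eq_top.mp e)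
    have key : ∀ H : Subgroup ↥Y, (S : Subgroup ↥Y) ≤ H → H ≠ ⊤ → H ≤ M.subgroupOf Y := by
      intro H hSH hH z hz
      by_contra hzM
      refine hH (eq_top_iff.mpr fun w _ => ?_)
      have hmem : H.map Y.subtype ∈ {Y' : Subgroup X | B ≤ Y' ∧ Y' ≤ L₁ ∧ ¬ Y' ≤ M} :=
        ⟨fun b hb => ⟨⟨b, hBY hb⟩, hSH (hS.ge hb), rfl⟩, (Subgroup.map_subtype_le _).trans hYL₁,
          fun hle => hzM (hle ⟨z, hz, rfl⟩)⟩
      exact (Subgroup.mem_map_iff_mem Y.subtype_injective).mp (hmin hmem (Subgroup.map_subtype_le _) w.2)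
    have hSM : (S : Subgroup ↥Y) ≤ M.subgroupOf Y := hS.le.trans (Subgroup.comap_mono (hBT.trans h.T_le))
    refine ⟨M.subgroupOf Y, ⟨⟨hne, fun H hH => ?_⟩, hSM⟩, fun M' hM' => ?_⟩
    · by_contra hH'
      exact hH.not_ge (key H (hSM.trans hH.le) hH')
    · rcases (hM'.1.le_iff.mp (key M' hM'.2 hM'.1.1)) with e | e
      · exact absurd e hne
      · exact e.symm
  have hE₃ : Nonempty (↥Y ⧸ πY.ker ≃* Matrix.ProjectiveSpecialLinearGroup (Fin 2) F) :=
    ⟨QuotientGroup.quotientKerEquivOfSurjective πY hsurj⟩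
  -- the member
  obtain ⟨M₀, hM₀⟩ := hE₂
  have hy : CfsgLib.PushingUp.Hyp S πY (n : ℕ) := ⟨hE₁, ⟨M₀, hM₀⟩, n.pos, hn, hsurj⟩
  set eB := Subgroup.inclusion hBY with heB
  have heR : eB.range = (S : Subgroup ↥Y) := by rw [hS, heB, Subgroup.inclusion_range]
  have hNQ₀ : N i₀ ≤ Q₀ := by
    refine (D.N_le i₀).trans (le_inf (fun v hv => (h.mem_vMod hv).1) ?_)
    rw [Subgroup.le_centralizer_iff]
    exact (h.wMod_le_pCore D).trans h.pCore_le_centralizer_vMod
  have hNY : N i₀ ≤ Y := hNQ₀.trans (hQ₀B.trans hBY)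
  set V := (N i₀).subgroupOf Y with hV
  haveI hVn : V.Normal := ⟨fun v hv y => by
    rw [hV, Subgroup.mem_subgroupOf] at hv ⊢
    exact (Subgroup.mem_normalizer_iff.mp (D.iSup_E_le_normalizer i₀ (hYS y.2)) _).mp hv⟩
  have hVQ : V ≤ pCore p ↥Y := (Subgroup.comap_mono hNQ₀).trans hQ₀p
  -- the matrices
  set ΦY := Φ.comp (Subgroup.inclusion hYS) with hΦY
  let cv : ↥V → (Fin 2 → F) := fun v => Cd.crd ⟨((v : ↥Y) : X), v.2⟩
  have hcv : Function.Injective cv := fun v w hvw =>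
    Subtype.ext (Subtype.ext (congrArg (fun t : ↥(N i₀) => (t : X)) (Cd.crd.injective hvw)))
  have hcvm : ∀ v w : ↥V, cv (v * w) = cv v + cv w := fun v w => Cd.crd_mul ⟨_, v.2⟩ ⟨_, w.2⟩
  have hconj : ∀ (y : ↥Y) (v : ↥V),
      cv ⟨y * v * y⁻¹, hVn.conj_mem v v.2 y⟩ = (ΦY y : Matrix (Fin 2) (Fin 2) F).mulVec (cv v) := fun y v =>
    Cd.act_ρ (sec (Subgroup.inclusion hYS y)) ⟨_, v.2⟩ _ (hsec (Subgroup.inclusion hYS y) _ v.2)
  have hcomm : ∀ (y : ↥Y) (v : ↥V), (ΦY y : Matrix (Fin 2) (Fin 2) F).mulVec (cv v) = cv v →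
      (v : ↥Y) * y = y * v := by
    intro y v hv
    rw [← hconj] at hv
    exact (mul_inv_eq_iff_eq_mul.mp (congrArg Subtype.val (hcv hv))).symm
  obtain ⟨f₀, hf₀, hf₀ne⟩ := (D.hyp i₀).exists_fixed Cd
  have hfix : ∀ g : ↥(⨆ j, E j), (g : X) ∈ (T : Subgroup X) →
      (Φ g : Matrix (Fin 2) (Fin 2) F).mulVec f₀ = f₀ := by
    intro g hgT
    obtain ⟨e, he, hge⟩ := D.exists_sameOn i₀ g.2
    obtain ⟨u, hu, hgu⟩ := (D.hyp i₀).inner_of_sameOn hgT (D.iSup_E_le_normalizer i₀ g.2) he hge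
    show (Cd.ρ (sec g) : Matrix (Fin 2) (Fin 2) F).mulVec f₀ = f₀
    rw [hΦ g ⟨u, (Subgroup.mem_inf.mp hu).2⟩ hgu, ← Cd.α_of_mem hu]
    exact hf₀ ⟨u, hu⟩
  have hfixY : ∀ y : ↥Y, (y : X) ∈ B → (ΦY y : Matrix (Fin 2) (Fin 2) F).mulVec f₀ = f₀ := fun y hy' =>
    hfix _ (hBT hy')
  have hker : ∀ y : ↥Y, (y : X) ∈ B → (y ∈ pCore p ↥Y ↔ ΦY y = 1) := by
    intro y hyB
    have hyS : y ∈ (S : Subgroup ↥Y) := hS.ge hyB
    rw [← hy.inf_ker, Subgroup.mem_inf, MonoidHom.mem_ker]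
    refine ⟨fun hy' => ?_, fun hy' => ⟨hyS, ?_⟩⟩
    · obtain ⟨l, hl⟩ := T.2 ⟨y, hBT hyB⟩
      refine eq_of_mk_eq (k := l) (l := 0) h.ne_two ?_ (one_pow _) hy'.2
      rw [← map_pow, show y ^ p ^ l = 1 from Subtype.ext (by simpa using congrArg Subtype.val hl), map_one]
    · show (QuotientGroup.mk' (Subgroup.center SL(2, F))) (ΦY y) = 1
      rw [hy', map_one]
  have hsplit : ∀ y : ↥Y, (y : X) ∈ B → ∀ v : ↥V, ∃ c : F,
      (ΦY y : Matrix (Fin 2) (Fin 2) F).mulVec (cv v) - cv v = c • f₀ :=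
    fun y hyB v => exists_smul_sub hf₀ne (hfixY y hyB) _
  let L0 : Subgroup ↥Y :=
    { carrier := {v | ∃ hv : v ∈ V, ∃ c : F, cv ⟨v, hv⟩ = c • f₀}
      one_mem' := ⟨one_mem _, 0, by
        have h1 := hcvm 1 1
        rw [mul_one, left_eq_add] at h1
        exact h1.trans (zero_smul F f₀).symm⟩
      mul_mem' := by
        rintro v w ⟨hv, c, hc⟩ ⟨hw, d, hd⟩
        exact ⟨mul_mem hv hw, c + d, by rw [add_smul, ← hc, ← hd]; exact hcvm ⟨v, hv⟩ ⟨w, hw⟩⟩
      inv_mem' := by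
        rintro v ⟨hv, c, hc⟩
        refine ⟨inv_mem hv, -c, ?_⟩
        have h1 := hcvm ⟨v, hv⟩ ⟨v, hv⟩⁻¹
        rw [mul_inv_cancel] at h1
        have h0 := hcvm 1 1
        rw [mul_one, left_eq_add] at h0
        rw [h0, hc] at h1
        rw [neg_smul]
        exact (neg_eq_of_add_eq_zero_right h1.symm).symm }
  have hL0 : Nat.card L0 ≤ Fintype.card F := by
    rw [← Nat.card_eq_fintype_card]
    refine Nat.card_le_card_of_injective (fun v : L0 => v.2.choose_spec.choose) fun v w hvw => ?_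
    have e1 : cv ⟨v, v.2.choose⟩ = cv ⟨w, w.2.choose⟩ := by
      rw [v.2.choose_spec.choose_spec, w.2.choose_spec.choose_spec]
      exact congrArg (· • f₀) hvw
    exact Subtype.ext (congrArg (fun t : ↥V => (t : ↥Y)) (hcv e1))
  have hVcomm : ⁅V, eB.range⁆ ≤ L0 := by
    rw [heR, hS, Subgroup.commutator_le]
    intro v hv a ha
    refine ⟨(Subgroup.commutator_le_left V ⊤) (Subgroup.commutator_mem_commutator hv trivial), ?_⟩
    obtain ⟨c, hc⟩ := hsplit a ha ⟨v, hv⟩⁻¹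
    refine ⟨c, ?_⟩
    have e1 : (⟨⁅v, a⁆, (Subgroup.commutator_le_left V ⊤) (Subgroup.commutator_mem_commutator hv trivial)⟩ : ↥V) =
        ⟨v, hv⟩ * ⟨a * ((⟨v, hv⟩ : ↥V)⁻¹ : ↥V) * a⁻¹, hVn.conj_mem _ (⟨v, hv⟩ : ↥V)⁻¹.2 a⟩ := by
      refine Subtype.ext ?_
      simp [commutatorElement_def, mul_assoc]
    rw [e1, hcvm, hconj, eq_add_of_sub_eq hc]
    have h1 := hcvm ⟨v, hv⟩ ⟨v, hv⟩⁻¹
    have h0 := hcvm 1 1
    rw [mul_one, left_eq_add] at h0
    rw [mul_inv_cancel, h0] at h1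
    rw [add_comm (c • f₀), ← add_assoc, ← h1, zero_add]
  let mB : (∀ y ∈ eB.range, y ∉ pCore p ↥Y → ¬ QuadOn (pCore p ↥Y) y) → Member ↥B := fun hfail =>
    { G := ↥Y
      e := eB
      inj := Subgroup.inclusion_injective hBY
      Q := pCore p ↥Y
      V := V
      q := Fintype.card F
      Qn := CfsgLib.ConjFunctor.pCore_normal (G := ↥Y) p
      Vn := hVn
      Q_le := heR ▸ hy.pCore_le_sylow
      V_le := hVQ
      commVQ := fun q hq => Subgroup.mem_centralizer_iff.mpr fun v hv => hcomm q ⟨v, hv⟩ (by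
        rw [(hker q (hS.le (hy.pCore_le_sylow hq))).mp hq, Matrix.SpecialLinearGroup.coe_one, Matrix.one_mulVec])
      V_ne := fun h0 => by
        have h9 := D.nine_le i₀
        rw [← Nat.card_congr (Subgroup.subgroupOfEquivOfLe hNY).toEquiv, ← hV, h0, Subgroup.card_bot] at h9
        omega
      one_lt := Fintype.one_lt_card
      bound := fun a ha haQ => by
        rw [heR, hS] at ha
        have hA1 : ΦY a ≠ 1 := fun h1 => haQ ((hker a ha).mpr h1)
        set W := V ⊓ Subgroup.centralizer ({a} : Set ↥Y) with hW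
        have hWL : W ≤ L0 := fun v hv => by
          refine ⟨hv.1, exists_smul_fixed hf₀ne (hfixY a ha) hA1 ?_⟩
          rw [← hconj]
          refine congrArg cv (Subtype.ext ?_)
          show a * v * a⁻¹ = v
          rw [← Subgroup.mem_centralizer_singleton_iff.mp hv.2, mul_inv_cancel_right]
        have h1 : (W.subgroupOf V).index * Nat.card (W.subgroupOf V) = Nat.card V := by
          rw [mul_comm, Subgroup.card_mul_index]
        rw [Nat.card_congr (Subgroup.subgroupOfEquivOfLe (show W ≤ V from inf_le_left)).toEquiv,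
          Nat.card_congr (Subgroup.subgroupOfEquivOfLe hNY).toEquiv, BlockHyp.card_eq Cd,
          Nat.card_eq_fintype_card (α := F), sq] at h1
        have h2 : Nat.card W ≤ Fintype.card F := (Subgroup.card_le_of_le hWL).trans hL0
        rw [Subgroup.relIndex]
        have h3 : 0 < Nat.card W := Nat.card_pos
        nlinarith
      card_le := by
        rw [heR, ← hy.inf_ker, Subgroup.inf_relIndex_left, Subgroup.relIndex_ker, hn]
        exact hy.card_map_le le_rfl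
      comm := hVcomm.trans fun v hv => Subgroup.mem_centralizer_iff.mpr fun b hb => by
        obtain ⟨hvV, c, hc⟩ := hv
        rw [heR, hS] at hb
        refine (hcomm b ⟨v, hvV⟩ ?_).symm
        rw [hc, Matrix.mulVec_smul, hfixY b hb]
      root := (Subgroup.card_le_of_le hVcomm).trans hL0
      failing := hfail }
  have hy₀ : ∃ y₀ : ↥Y, (y₀ : X) ∈ B ∧ y₀ ∉ pCore p ↥Y ∧ QuadOn (pCore p ↥Y) y₀ := by
    by_contra hcon
    push Not at hcon
    have hfail : ∀ y ∈ eB.range, y ∉ pCore p ↥Y → ¬ QuadOn (pCore p ↥Y) y := fun y hy' hyQ =>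
      hcon y (hS.le (heR.le hy')) hyQ
    have hn' : ((common ↥B).map eB).Normal := common_normal (mB hfail)
    have hnY : Y ≤ Subgroup.normalizer (commonIn B : Set X) := by
      have h1 := Subgroup.le_normalizer_map (H := (common ↥B).map eB) Y.subtype
      rw [Subgroup.normalizer_eq_top_iff.mpr hn', ← MonoidHom.range_eq_map, Subgroup.range_subtype,
        Subgroup.map_map, show Y.subtype.comp eB = B.subtype from rfl] at h1
      exact h1
    have hnT : (T : Subgroup X) ≤ Subgroup.normalizer (commonIn B : Set X) :=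
      Subgroup.le_normalizer.trans ((charIn_common B).trans (charIn_baumann (p := p) _)).normalizer_le
    have htop : Y ⊔ (T : Subgroup X) = ⊤ := by
      by_contra hne
      exact hYM (le_sup_left.trans (h.uniq _ le_sup_right hne))
    exact h.kNot (Subgroup.normalizer_eq_top_iff.mp (top_le_iff.mp (htop.ge.trans (sup_le hnY hnT))))
  refine ⟨Y, hBY, hYL, hYM, hrelQ, {x | ∃ y : ↥Y, (y : X) = x ∧ x ∈ B ∧ QuadOn (pCore p ↥Y) y},
    fun y hy' => hy'.choose_spec.2.1, ?_, ?_⟩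
  · intro g hg hgM
    by_contra hcon
    push Not at hcon
    obtain ⟨y₀, hy₀B, hy₀Q, hy₀q⟩ := hy₀
    set R := B ⊔ pCore p X with hR
    have hRT : R ≤ (T : Subgroup X) := sup_le hBT h.pCore_le_T
    have hRY : R ≤ Y ⊔ pCore p X := sup_le_sup_right hBY _
    set H := M ⊓ (Y ⊔ pCore p X) with hH
    have hRH : R ≤ H := le_inf (hRT.trans h.T_le) hRY
    have hsyl : SylowIn p R H := by
      refine ⟨hRH, T.2.to_le hRT, fun hd => hrelQ ?_⟩
      exact hd.trans (Dvd.intro _ (Subgroup.relIndex_mul_relIndex _ _ _ hRH inf_le_right))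
    have hgy : g⁻¹ * (y₀ : X) * g ∈ H := Subgroup.mem_inf.mpr
      ⟨hcon y₀ ⟨y₀, rfl, hy₀B, hy₀q⟩,
        mul_mem (mul_mem (inv_mem hg) (Subgroup.mem_sup_left y₀.2)) hg⟩
    obtain ⟨c, hc, hcR⟩ := exists_conj_le_of_sylowIn hsyl (Subgroup.zpowers_le.mpr hgy)
      (by
        rw [show g⁻¹ * (y₀ : X) * g = MulAut.conj g⁻¹ (y₀ : X) by simp,
          show Subgroup.zpowers (MulAut.conj g⁻¹ (y₀ : X)) =
            (Subgroup.zpowers (y₀ : X)).map (MulAut.conj g⁻¹).toMonoidHom from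
              (MonoidHom.map_zpowers (MulAut.conj g⁻¹).toMonoidHom (y₀ : X)).symm]
        exact (T.2.to_le (Subgroup.zpowers_le.mpr (hBT hy₀B))).map _)
    have hkT : c * g⁻¹ * (y₀ : X) * (c * g⁻¹)⁻¹ ∈ (T : Subgroup X) := by
      have h1 := hRT (conjOf_le_iff.mp hcR _ (Subgroup.mem_zpowers (g⁻¹ * (y₀ : X) * g)))
      simpa [mul_assoc] using h1
    obtain ⟨hcM, hcY⟩ := Subgroup.mem_inf.mp hc
    have hQE : pCore p X ≤ E i₀ := h.pCore_le_E D i₀
    have hk : c * g⁻¹ ∈ E i₀ ⊔ UU (T : Subgroup X) E :=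
      (sup_le hYE (hQE.trans le_sup_left)) (mul_mem hcY (inv_mem hg))
    have hkS : c * g⁻¹ ∈ ⨆ j, E j :=
      (sup_le (le_iSup E i₀) (iSup_le fun j => inf_le_right.trans (le_iSup E j))) hk
    set k : ↥(⨆ j, E j) := ⟨c * g⁻¹, hkS⟩ with hkdef
    set y₁ : ↥(⨆ j, E j) := Subgroup.inclusion hYS y₀ with hy₁
    have ha1 : Φ y₁ ≠ 1 := fun h1 => hy₀Q ((hker y₀ hy₀B).mpr h1)
    have hb := hfix (k * y₁ * k⁻¹) hkT
    rw [map_mul, map_mul, map_inv] at hb
    set K := Φ k with hK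
    have hK' : (Φ y₁ : Matrix (Fin 2) (Fin 2) F).mulVec ((K⁻¹ : SL(2, F)).1.mulVec f₀) =
        (K⁻¹ : SL(2, F)).1.mulVec f₀ := by
      conv_rhs => rw [← hb]
      rw [Matrix.mulVec_mulVec, Matrix.mulVec_mulVec, ← Matrix.SpecialLinearGroup.coe_mul,
        ← Matrix.SpecialLinearGroup.coe_mul, ← mul_assoc, ← mul_assoc, inv_mul_cancel, one_mul]
    obtain ⟨a, ha⟩ := exists_smul_fixed hf₀ne (hfix y₁ (hBT hy₀B)) ha1 hK'
    refine hgM ?_
    have hkM : c * g⁻¹ ∈ M := by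
      refine hπM k hk fun q hq => ?_
      obtain ⟨z, hz, rfl⟩ := hPB q hq
      rw [← map_inv, ← map_mul, ← map_mul]
      have hst : Φ (k * z * k⁻¹) ∈ stabVec f₀ := by
        rw [mem_stabVec, map_mul, map_mul, map_inv, ← hK, Matrix.SpecialLinearGroup.coe_mul,
          Matrix.SpecialLinearGroup.coe_mul, ← Matrix.mulVec_mulVec, ← Matrix.mulVec_mulVec, ha,
          Matrix.mulVec_smul, hfix z (hBT hz), ← ha, Matrix.mulVec_mulVec,
          ← Matrix.SpecialLinearGroup.coe_mul, mul_inv_cancel, Matrix.SpecialLinearGroup.coe_one, Matrix.one_mulVec]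
      have hle : P ≤ (stabVec f₀).map (QuotientGroup.mk' (Subgroup.center SL(2, F))) := by
        intro q' hq'
        obtain ⟨z', hz', rfl⟩ := hPB q' hq'
        exact ⟨Φ z', mem_stabVec.mpr (hfix z' (hBT hz')), rfl⟩
      have heq := (hPp.toSylow hPi).3 ((isPGroup_stabVec (p := p) hf₀ne).map
        (QuotientGroup.mk' (Subgroup.center SL(2, F)))) (by rw [IsPGroup.toSylow_coe]; exact hle)
      rw [IsPGroup.toSylow_coe] at heq
      exact heq.le ⟨_, hst, rfl⟩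
    have h1 := mul_mem (inv_mem hcM) hkM
    rw [inv_mul_cancel_left] at h1
    simpa using inv_mem h1
  · intro U W hUW hUQ y hy' u hu a b
    obtain ⟨y', hyy, -, hq⟩ := hy'
    obtain rfl : y' = y := Subtype.ext hyy
    haveI := hUW.2.2.1
    exact quad_pow hUW.2.1 (hq U W hUW hUQ) hu a b

end Core

end CfsgLib.TransferThree23
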