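import Cfsg.Agent.TwoSubgroup16.Engel
import Cfsg.Agent.TransferThree23.Functor

/-!
A constrained group in which a Sylow `p`-subgroup lies in a unique maximal subgroup, neither its centre nor the
common subgroup of its Baumann subgroup being normal: the first properties.
-/

set_option autoImplicit false

open Cfsg
open CfsgLib.ConjFunctor (conjOf conjOf_conjOf conjOf_one card_conjOf conjOf_mono conj_mem_conjOf mem_normalizer_iff_conjOf conjOf_le_iff mem_conjOf)
open CfsgLib.TwoSubgroup16 hiding Core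

namespace CfsgLib.TransferThree23

universe u

variable {X : Type u} [Group X] {p : ℕ}

/-- The standing hypotheses. -/
structure Core (p : ℕ) (T : Sylow p X) (M : Subgroup X) : Prop where
  ne_two : p ≠ 2
  constrained : Subgroup.centralizer (pCore p X : Set X) ≤ pCore p X
  M_ne_top : M ≠ ⊤
  T_le : (T : Subgroup X) ≤ M
  uniq : ∀ H : Subgroup X, (T : Subgroup X) ≤ H → H ≠ ⊤ → H ≤ M
  centreNot : ¬ ((T : Subgroup X) ⊓ Subgroup.centralizer ((T : Subgroup X) : Set X)).Normal
  kNot : ¬ (commonIn (baumannSubgroupOf p (T : Subgroup X))).Normal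

variable [Finite X] [Fact p.Prime] {T : Sylow p X} {M : Subgroup X}

namespace Core

variable (h : Core p T M)

include h

theorem pCore_le_T : pCore p X ≤ (T : Subgroup X) := CfsgLib.ConjFunctor.pCore_le_sylow T

theorem isCoatom_M : IsCoatom M :=
  ⟨h.M_ne_top, fun H hH => by
    by_contra hne
    exact hH.not_ge (h.uniq H (h.T_le.trans hH.le) hne)⟩

theorem not_normal_T : ¬ (T : Subgroup X).Normal := fun hn => by
  refine h.kNot (Subgroup.normalizer_eq_top_iff.mp (top_le_iff.mp ?_))
  refine le_trans ?_ ((CfsgLib.TransferThree23.charIn_common _).trans (charIn_baumann (p := p) _)).normalizer_le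
  rw [Subgroup.normalizer_eq_top_iff.mpr hn]

theorem not_le_pCore : ¬ (T : Subgroup X) ≤ pCore p X := fun hle => h.not_normal_T
  (le_antisymm hle h.pCore_le_T ▸ CfsgLib.ConjFunctor.pCore_normal p)

/-- A subgroup of `T` invariant under `T` and not in the core has its normalizer in `M`. -/
theorem normalizer_le_M {R : Subgroup X} (hRT : R ≤ (T : Subgroup X))
    (hTR : (T : Subgroup X) ≤ Subgroup.normalizer (R : Set X)) (hRQ : ¬ R ≤ pCore p X) :
    Subgroup.normalizer (R : Set X) ≤ M := by
  refine h.uniq _ hTR fun htop => hRQ ?_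
  exact CfsgLib.Constrained.le_pCore (Subgroup.normalizer_eq_top_iff.mp htop) (T.2.to_le hRT)

/-- A normal subgroup of `X` inside `M` meets `T` in the core. -/
theorem inf_le_pCore {H : Subgroup X} [H.Normal] (hHM : H ≤ M) : (T : Subgroup X) ⊓ H ≤ pCore p X := by
  by_contra hne
  obtain ⟨S₀, hS₀⟩ := CfsgLib.NormalCent.sylow_inf_normal T H
  have hTN : (T : Subgroup X) ≤ Subgroup.normalizer (((T : Subgroup X) ⊓ H : Subgroup X) : Set X) := fun t ht =>
    mem_normalizer_iff_conjOf.mpr (Subgroup.eq_of_le_of_card_ge (conjOf_le_iff.mpr fun x hx =>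
      Subgroup.mem_inf.mpr ⟨mul_mem (mul_mem ht hx.1) (inv_mem ht), ‹H.Normal›.conj_mem x hx.2 t⟩) (card_conjOf _ _).ge)
  have htop := Sylow.normalizer_sup_eq_top S₀
  rw [hS₀] at htop
  exact h.M_ne_top (top_le_iff.mp (htop.ge.trans (sup_le (h.normalizer_le_M inf_le_left hTN hne) hHM)))

/-- A normal subgroup whose part in `T` is not in the core, together with `T`, generates `X`. -/
theorem sup_T_eq_top {H : Subgroup X} [H.Normal] (hH : ¬ (T : Subgroup X) ⊓ H ≤ pCore p X) :
    H ⊔ (T : Subgroup X) = ⊤ := by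
  by_contra hne
  exact hH (h.inf_le_pCore (le_sup_left.trans (h.uniq _ le_sup_right hne)))

theorem T_ne_bot : (T : Subgroup X) ≠ ⊥ := fun h0 => h.not_le_pCore (h0 ▸ bot_le)

theorem zOne_ne_bot : zOne p (T : Subgroup X) ≠ ⊥ := by
  haveI : Nontrivial ↥(T : Subgroup X) := (Subgroup.nontrivial_iff_ne_bot _).mpr h.T_ne_bot
  haveI := (T.2).center_nontrivial
  obtain ⟨n, hn0, hn⟩ := (T.2.to_subgroup (Subgroup.center ↥(T : Subgroup X))).nontrivial_iff_card.mp inferInstance
  obtain ⟨x, hx⟩ := exists_prime_orderOf_dvd_card' p (G := Subgroup.center ↥(T : Subgroup X))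
    (by rw [hn]; exact dvd_pow_self p (by omega))
  intro h0
  have hmem : ((x : ↥(T : Subgroup X)) : X) ∈ zOne p (T : Subgroup X) := by
    refine mem_zOne_iff.mpr ⟨(x : ↥(T : Subgroup X)).2, Subgroup.mem_centralizer_iff.mpr fun t ht => ?_, ?_⟩
    · exact congrArg Subtype.val (Subgroup.mem_center_iff.mp x.2 ⟨t, ht⟩)
    · have h1 : x ^ p = 1 := orderOf_dvd_iff_pow_eq_one.mp (dvd_of_eq hx)
      simpa using congrArg (fun y : Subgroup.center ↥(T : Subgroup X) => ((y : ↥(T : Subgroup X)) : X)) h1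
  rw [h0, Subgroup.mem_bot] at hmem
  have : x = 1 := Subtype.ext (Subtype.ext hmem)
  rw [this, orderOf_one] at hx
  exact (Fact.out : p.Prime).ne_one hx.symm

theorem zOne_le : zOne p (T : Subgroup X) ≤ pCore p X ⊓ Subgroup.centralizer (pCore p X : Set X) := by
  intro x hx
  obtain ⟨-, hxc, -⟩ := mem_zOne_iff.mp hx
  have h1 : x ∈ Subgroup.centralizer (pCore p X : Set X) := Subgroup.centralizer_le h.pCore_le_T hxc
  exact ⟨h.constrained h1, h1⟩

theorem mem_vMod {x : X} (hx : x ∈ vMod p (T : Subgroup X)) :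
    x ∈ pCore p X ∧ x ∈ Subgroup.centralizer (pCore p X : Set X) ∧ x ^ p = 1 := by
  haveI := CfsgLib.ConjFunctor.pCore_normal (G := X) p
  induction hx using Subgroup.closure_induction with
  | mem x hx =>
    rw [Group.mem_conjugatesOfSet_iff] at hx
    obtain ⟨z, hz, hzx⟩ := hx
    obtain ⟨g, rfl⟩ := isConj_iff.mp hzx
    have hz1 := h.zOne_le hz
    have hz2 := (mem_zOne_iff.mp hz).2.2
    haveI hn : (Subgroup.centralizer (pCore p X : Set X)).Normal := inferInstance
    exact ⟨Subgroup.Normal.conj_mem inferInstance z hz1.1 g, hn.conj_mem z hz1.2 g,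
      by rw [conj_pow, hz2, mul_one, mul_inv_cancel]⟩
  | one => exact ⟨one_mem _, one_mem _, one_pow p⟩
  | mul a b _ _ ha hb =>
    have hc : Commute a b := (Subgroup.mem_centralizer_iff.mp hb.2.1 a ha.1)
    exact ⟨mul_mem ha.1 hb.1, mul_mem ha.2.1 hb.2.1, by rw [hc.mul_pow, ha.2.2, hb.2.2, one_mul]⟩
  | inv a _ ha => exact ⟨inv_mem ha.1, inv_mem ha.2.1, by rw [inv_pow, ha.2.2, inv_one]⟩

theorem vMod_el : IsElementaryAbelian p (vMod p (T : Subgroup X)) :=
  CfsgLib.LocalP.isElementaryAbelian_iff.mpr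
    ⟨fun _ hx _ hy => (Subgroup.mem_centralizer_iff.mp (h.mem_vMod hy).2.1 _ (h.mem_vMod hx).1),
      fun _ ha => (h.mem_vMod ha).2.2⟩

theorem pCore_le_centralizer_vMod : pCore p X ≤ Subgroup.centralizer (vMod p (T : Subgroup X) : Set X) :=
  Subgroup.le_centralizer_iff.mpr fun _ hx => (h.mem_vMod hx).2.1

theorem vMod_le_T : vMod p (T : Subgroup X) ≤ (T : Subgroup X) :=
  fun _ hx => h.pCore_le_T (h.mem_vMod hx).1

theorem not_zOne_le_center : ¬ zOne p (T : Subgroup X) ≤ Subgroup.center X := by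
  classical
  intro hcen
  haveI := CfsgLib.ConjFunctor.pCore_normal (G := X) p
  set A := pCore p X ⊓ Subgroup.centralizer (pCore p X : Set X) with hA
  haveI : A.Normal := inferInstance
  letI : CommGroup ↥A := { (inferInstance : Group ↥A) with
    mul_comm := fun a b => Subtype.ext ((Subgroup.mem_centralizer_iff.mp b.2.2 a a.2.1)) }
  haveI : Fintype (X ⧸ (T : Subgroup X)) := Fintype.ofFinite _
  have main : ∀ n : ℕ, ∀ z ∈ (T : Subgroup X) ⊓ Subgroup.centralizer ((T : Subgroup X) : Set X),
      orderOf z = n → z ∈ Subgroup.center X := by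
    intro n
    induction n using Nat.strong_induction_on with
    | _ n ih =>
    intro z hz hn
    by_cases hz1 : z = 1
    · rw [hz1]; exact one_mem _
    have hzC : z ∈ Subgroup.centralizer (pCore p X : Set X) := Subgroup.centralizer_le h.pCore_le_T hz.2
    have hzA : z ∈ A := ⟨h.constrained hzC, hzC⟩
    have hzp : z ^ p ∈ Subgroup.center X := by
      refine ih (orderOf (z ^ p)) ?_ _ (pow_mem hz p) rfl
      obtain ⟨k, hk⟩ := T.2 ⟨z, hz.1⟩
      have hdvd : orderOf z ∣ p ^ k := orderOf_dvd_of_pow_eq_one (by simpa using congrArg Subtype.val hk)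
      obtain ⟨l, -, hl⟩ := (Nat.dvd_prime_pow (Fact.out : p.Prime)).mp hdvd
      have hl0 : l ≠ 0 := fun h0 => hz1 (orderOf_eq_one_iff.mp (by rw [hl, h0, pow_zero]))
      rw [← hn, orderOf_pow' z (Fact.out : p.Prime).ne_zero, Nat.gcd_eq_right (hl ▸ dvd_pow_self p hl0)]
      exact Nat.div_lt_self (orderOf_pos z) (Fact.out : p.Prime).one_lt
    let c : X → ↥A := fun g => ⟨g * z * g⁻¹, Subgroup.Normal.conj_mem inferInstance z hzA g⟩
    have hc : ∀ g g' : X, g⁻¹ * g' ∈ (T : Subgroup X) → c g = c g' := by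
      intro g g' hgg
      refine Subtype.ext ?_
      show g * z * g⁻¹ = g' * z * g'⁻¹
      calc g * z * g⁻¹ = g * (z * (g⁻¹ * g')) * g'⁻¹ := by group
        _ = g * ((g⁻¹ * g') * z) * g'⁻¹ := by rw [(Subgroup.mem_centralizer_iff.mp hz.2 _ hgg)]
        _ = _ := by group
    let F : ↥A := ∏ x : X ⧸ (T : Subgroup X), c x.out
    have hF : (F : X) ∈ Subgroup.center X := by
      rw [Subgroup.mem_center_iff]
      intro g
      have h1 : MulAut.conjNormal g F = F := by
        show MulAut.conjNormal g (∏ x : X ⧸ (T : Subgroup X), c x.out) = _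
        rw [map_prod]
        refine Fintype.prod_equiv (MulAction.toPerm g) _ _ fun x => ?_
        have h2 : MulAut.conjNormal g (c x.out) = c (g * x.out) := Subtype.ext (by simp [c, mul_assoc])
        rw [h2]
        refine hc _ _ ?_
        rw [← QuotientGroup.eq, QuotientGroup.out_eq', ← smul_eq_mul, ← MulAction.Quotient.smul_coe, QuotientGroup.out_eq']
        rfl
      have h2 := congrArg Subtype.val h1
      rw [MulAut.conjNormal_apply, mul_inv_eq_iff_eq_mul] at h2
      exact h2
    have hFz : (F : X) * (z ^ (T : Subgroup X).index)⁻¹ ∈ Subgroup.center X := by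
      refine hcen (mem_zOne_iff.mpr ⟨?_, ?_, ?_⟩)
      · exact mul_mem (h.pCore_le_T F.2.1) (inv_mem (pow_mem hz.1 _))
      · exact mul_mem (Subgroup.center_le_centralizer _ hF) (inv_mem (pow_mem hz.2 _))
      · have hFp : (F : X) ^ p = (z ^ p) ^ (T : Subgroup X).index := by
          have e : F ^ p = (⟨z ^ p, pow_mem hzA p⟩ : ↥A) ^ (T : Subgroup X).index := by
            show (∏ x : X ⧸ (T : Subgroup X), c x.out) ^ p = _
            rw [← Finset.prod_pow, Subgroup.index_eq_card, Nat.card_eq_fintype_card, ← Finset.card_univ,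
              ← Finset.prod_const]
            refine Finset.prod_congr rfl fun x _ => Subtype.ext ?_
            show (x.out * z * x.out⁻¹) ^ p = z ^ p
            rw [conj_pow, Subgroup.mem_center_iff.mp hzp, mul_inv_cancel_right]
          simpa using congrArg Subtype.val e
        rw [(show Commute (F : X) (z ^ (T : Subgroup X).index)⁻¹ from
          (Subgroup.mem_center_iff.mp hF _).symm).mul_pow, hFp, inv_pow, ← pow_mul, ← pow_mul, mul_comm p,
          mul_inv_cancel]
    have hzi : z ^ (T : Subgroup X).index ∈ Subgroup.center X := by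
      have h1 := mul_mem (inv_mem hFz) hF
      rwa [mul_inv_rev, inv_inv, inv_mul_cancel_right] at h1
    have hg : Nat.gcd p (T : Subgroup X).index = 1 :=
      ((Fact.out : p.Prime).coprime_iff_not_dvd).mpr T.not_dvd_index
    have h1 := Nat.gcd_eq_gcd_ab p (T : Subgroup X).index
    rw [hg, Nat.cast_one] at h1
    have h2 : z ^ (1 : ℤ) ∈ Subgroup.center X := by
      rw [h1, zpow_add, zpow_mul, zpow_mul, zpow_natCast, zpow_natCast]
      exact mul_mem (zpow_mem hzp _) (zpow_mem hzi _)
    simpa using h2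
  refine h.centreNot ⟨fun z hz g => ?_⟩
  rwa [Subgroup.mem_center_iff.mp (main _ z hz rfl) g, mul_inv_cancel_right]

theorem centralizer_zOne_le : Subgroup.centralizer (zOne p (T : Subgroup X) : Set X) ≤ M := by
  refine h.uniq _ (fun t ht => Subgroup.mem_centralizer_iff.mpr fun z hz =>
    (Subgroup.mem_centralizer_iff.mp (mem_zOne_iff.mp hz).2.1 t ht).symm) fun htop => ?_
  refine h.not_zOne_le_center fun z hz => Subgroup.mem_center_iff.mpr fun g => ?_
  exact (Subgroup.mem_centralizer_iff.mp (htop ▸ Subgroup.mem_top g) z hz).symm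

theorem centralizer_vMod_le : Subgroup.centralizer (vMod p (T : Subgroup X) : Set X) ≤ M :=
  (Subgroup.centralizer_le Subgroup.subset_normalClosure).trans h.centralizer_zOne_le

theorem inf_centralizer_vMod :
    (T : Subgroup X) ⊓ Subgroup.centralizer (vMod p (T : Subgroup X) : Set X) = pCore p X :=
  le_antisymm (h.inf_le_pCore h.centralizer_vMod_le) (le_inf h.pCore_le_T h.pCore_le_centralizer_vMod)

theorem thompson_not_le : ¬ thompsonSubgroupOf p (T : Subgroup X) ≤ pCore p X := by
  intro hle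
  haveI := CfsgLib.ConjFunctor.pCore_normal (G := X) p
  set J := thompsonSubgroupOf p (T : Subgroup X) with hJ
  haveI hJn : J.Normal := by
    rw [hJ, ← CfsgLib.LocalP.thompsonSubgroupOf_eq_of_le h.pCore_le_T hle]
    refine Subgroup.normalizer_eq_top_iff.mp (top_le_iff.mp ?_)
    refine le_trans ?_ (CfsgLib.LocalP.le_normalizer_thompsonSubgroupOf _)
    rw [Subgroup.normalizer_eq_top]
  haveI hzn : (zThompson p (T : Subgroup X)).Normal := ⟨fun x hx g => by
    rw [mem_zThompson_iff] at hx ⊢
    exact ⟨hJn.conj_mem x hx.1 g, (inferInstance : (Subgroup.centralizer (J : Set X)).Normal).conj_mem x hx.2.1 g,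
      by rw [conj_pow, hx.2.2, mul_one, mul_inv_cancel]⟩⟩
  set C0 := Subgroup.centralizer (zThompson p (T : Subgroup X) : Set X) with hC0
  haveI : C0.Normal := inferInstance
  have hB : baumannSubgroupOf p (T : Subgroup X) = (T : Subgroup X) ⊓ C0 := rfl
  by_cases hCM : C0 ≤ M
  · have e : baumannSubgroupOf p (T : Subgroup X) = pCore p X ⊓ C0 :=
      le_antisymm (le_inf (hB.le.trans (h.inf_le_pCore hCM)) (hB.le.trans inf_le_right))
        ((inf_le_inf_right _ h.pCore_le_T).trans hB.ge)
    haveI hBn : (baumannSubgroupOf p (T : Subgroup X)).Normal := by rw [e]; infer_instance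
    refine h.kNot (Subgroup.normalizer_eq_top_iff.mp (top_le_iff.mp ?_))
    refine le_trans ?_ (CfsgLib.TransferThree23.charIn_common _).normalizer_le
    rw [Subgroup.normalizer_eq_top_iff.mpr hBn]
  · have htop : C0 ⊔ (T : Subgroup X) = ⊤ := by
      by_contra hne
      exact hCM (le_sup_left.trans (h.uniq _ le_sup_right hne))
    refine h.not_zOne_le_center fun z hz => Subgroup.mem_center_iff.mpr fun g => ?_
    obtain ⟨hzT, hzc, hzp⟩ := mem_zOne_iff.mp hz
    obtain ⟨A, hA⟩ := CfsgLib.LocalP.exists_maxElemIn (p := p) (T : Subgroup X)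
    have hzA : z ∈ A := CfsgLib.LocalP.mem_of_centralizes hA hzT hzp fun a ha =>
      Subgroup.mem_centralizer_iff.mp hzc a (hA.1 ha)
    have hzJ : z ∈ zThompson p (T : Subgroup X) := mem_zThompson_iff.mpr
      ⟨(le_thompson hA) hzA, Subgroup.centralizer_le (hle.trans h.pCore_le_T) hzc, hzp⟩
    have hg : g ∈ Subgroup.centralizer ({z} : Set X) := (sup_le
      (Subgroup.centralizer_le (by simpa using hzJ)) (fun t ht => Subgroup.mem_centralizer_singleton_iff.mpr
        (Subgroup.mem_centralizer_iff.mp hzc t ht)) : C0 ⊔ (T : Subgroup X) ≤ _) (htop ▸ Subgroup.mem_top g)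
    exact Subgroup.mem_centralizer_singleton_iff.mp hg

theorem exists_offender : ∃ A ∈ CfsgLib.LocalP.maxElemIn p (T : Subgroup X), ¬ A ≤ pCore p X := by
  by_contra hcon
  push Not at hcon
  exact h.thompson_not_le ((CfsgLib.LocalP.thompsonSubgroupOf_eq_sSup _).le.trans (sSup_le hcon))

theorem inf_vMod_eq {A : Subgroup X} (hA : A ∈ CfsgLib.LocalP.maxElemIn p (T : Subgroup X)) :
    vMod p (T : Subgroup X) ⊓ A = vMod p (T : Subgroup X) ⊓ Subgroup.centralizer (A : Set X) := by
  refine le_antisymm ?_ ?_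
  · exact inf_le_inf_left _ fun a ha => Subgroup.mem_centralizer_iff.mpr fun b hb =>
      (CfsgLib.LocalP.isElementaryAbelian_iff.mp hA.2.1).1 b hb a ha
  · rintro v ⟨hv, hvA⟩
    exact ⟨hv, CfsgLib.LocalP.mem_of_centralizes hA (h.vMod_le_T hv) (h.mem_vMod hv).2.2
      fun a ha => Subgroup.mem_centralizer_iff.mp hvA a ha⟩

/-- The offender inequality for a member of `𝒜(T)`. -/
theorem card_le_of_maxElemIn {A : Subgroup X} (hA : A ∈ CfsgLib.LocalP.maxElemIn p (T : Subgroup X)) :
    Nat.card (vMod p (T : Subgroup X)) *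
        Nat.card ↥(A ⊓ Subgroup.centralizer (vMod p (T : Subgroup X) : Set X)) ≤
      Nat.card A * Nat.card ↥(vMod p (T : Subgroup X) ⊓ Subgroup.centralizer (A : Set X)) := by
  set V := vMod p (T : Subgroup X)
  set B := A ⊓ Subgroup.centralizer (V : Set X)
  have hBel : IsElementaryAbelian p (B ⊔ V) :=
    CfsgLib.LocalP.isElementaryAbelian_sup (CfsgLib.LocalP.isElementaryAbelian_mono hA.2.1 inf_le_left) h.vMod_el
      fun b hb v hv => (Subgroup.mem_centralizer_iff.mp hb.2 v hv).symm
  have h1 := hA.2.2 _ (sup_le (inf_le_left.trans hA.1) h.vMod_le_T) hBel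
  have h2 := CfsgLib.LocalP.card_mul_le_card_sup_mul_card_inf B V
  have h3 : B ⊓ V ≤ V ⊓ Subgroup.centralizer (A : Set X) := by
    rw [← h.inf_vMod_eq hA]
    exact le_inf inf_le_right (inf_le_left.trans inf_le_left)
  calc Nat.card V * Nat.card B = Nat.card B * Nat.card V := mul_comm _ _
    _ ≤ Nat.card ↥(B ⊔ V) * Nat.card ↥(B ⊓ V) := h2
    _ ≤ _ := Nat.mul_le_mul h1 (Subgroup.card_le_of_le h3)

end Core

end CfsgLib.TransferThree23
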