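import Cfsg.Agent.TransferThree23.Core

/-!
The blocks, the Thompson subgroup and the Baumann subgroup under the standing hypotheses.
-/

set_option autoImplicit false

open Cfsg
open CfsgLib.ConjFunctor (conjOf conjOf_conjOf conjOf_one card_conjOf conjOf_mono conj_mem_conjOf mem_normalizer_iff_conjOf conjOf_le_iff mem_conjOf)
open CfsgLib.LocalP (maxElemIn)
open CfsgLib.MinParFF (card_sup_mul_inf)
open scoped commutatorElement
open CfsgLib.TwoSubgroup16 hiding Core

namespace CfsgLib.TransferThree23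

universe u

section Decomp

variable {X : Type u} [Group X] [Finite X] {p : ℕ} [Fact p.Prime] {T : Sylow p X} {M : Subgroup X}

namespace Core

variable (h : Core p T M)

include h

/-- The hypotheses of the offender theorem in the ambient group. -/
theorem exists_ambient :
    let V := vMod p (T : Subgroup X)
    let P := (toAmb V).range
    ∃ (T' : Sylow p ↥P) (M' : Subgroup ↥P), IsPMinimal p ↥P ∧ pCore p ↥P = ⊥ ∧ IsCoatom M' ∧
      (T' : Subgroup ↥P) ≤ M' ∧ (T' : Subgroup ↥P).map P.subtype = (T : Subgroup X).map (toAmb V) ∧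
      P ⊓ Subgroup.centralizer ((vAmb V ⊓ Subgroup.centralizer
        ((((T' : Subgroup ↥P).map P.subtype) : Subgroup (Amb V)) : Set (Amb V))) : Set (Amb V)) ≤
          M'.map P.subtype ∧
      ∃ A : Subgroup (Amb V), A ≤ P ∧ ¬ A ≤ Subgroup.centralizer (vAmb V : Set (Amb V)) ∧
        IsBestOffenderOn p (vAmb V) A := by
  intro V P
  set g := toAmb V
  set f := g.rangeRestrict
  have hfs : Function.Surjective f := g.rangeRestrict_surjective
  have hker : g.ker = Subgroup.centralizer (V : Set X) := ker_toAmb V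
  have hfker : f.ker = Subgroup.centralizer (V : Set X) := by rw [MonoidHom.ker_rangeRestrict, hker]
  have hCM : f.ker ≤ M := hfker ▸ h.centralizer_vMod_le
  haveI hCn : (Subgroup.centralizer (V : Set X)).Normal := inferInstance
  set T' := T.mapSurjective hfs with hT'
  set M' := M.map f
  have hcm : M'.comap f = M := by rw [Subgroup.comap_map_eq, sup_eq_left.mpr hCM]
  have hcoat : IsCoatom M' := by
    refine ⟨fun e => h.M_ne_top ?_, fun H hH => ?_⟩
    · rw [← hcm, e, Subgroup.comap_top]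
    · have h1 : M < H.comap f := by
        rw [← hcm]
        exact (Subgroup.comap_lt_comap_of_surjective hfs).mpr hH
      rw [← Subgroup.map_comap_eq_self_of_surjective hfs H, h.isCoatom_M.2 _ h1,
        Subgroup.map_top_of_surjective f hfs]
  have hTM' : (T' : Subgroup ↥P) ≤ M' := Subgroup.map_mono h.T_le
  have hTc : ∀ H : Subgroup ↥P, (T' : Subgroup ↥P) ≤ H → (T : Subgroup X) ≤ H.comap f := fun H hH =>
    Subgroup.map_le_iff_le_comap.mp hH
  have huniq : ∃! M₁ : Subgroup ↥P, IsCoatom M₁ ∧ (T' : Subgroup ↥P) ≤ M₁ := by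
    refine ⟨M', ⟨hcoat, hTM'⟩, ?_⟩
    rintro H ⟨hH, hTH⟩
    by_contra hne
    have h1 : H.comap f ≤ M := h.uniq _ (hTc H hTH) fun e => hH.1 (by
      rw [← Subgroup.map_comap_eq_self_of_surjective hfs H, e, Subgroup.map_top_of_surjective f hfs])
    have h2 : H ≤ M' := by
      rw [← Subgroup.map_comap_eq_self_of_surjective hfs H]
      exact Subgroup.map_mono h1
    exact hcoat.1 (hH.2 M' (lt_of_le_of_ne h2 hne))
  have hTC : ∀ x ∈ (T : Subgroup X), x ∈ Subgroup.centralizer (V : Set X) → x ∈ pCore p X := fun x hx hxc =>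
    h.inf_centralizer_vMod.le ⟨hx, hxc⟩
  have hsat : ((T' : Subgroup ↥P)).comap f = (T : Subgroup X) ⊔ Subgroup.centralizer (V : Set X) := by
    rw [hT', Sylow.coe_mapSurjective, Subgroup.comap_map_eq, hfker]
  have hnorm : ¬ (T' : Subgroup ↥P).Normal := by
    intro hn
    haveI : ((T : Subgroup X) ⊔ Subgroup.centralizer (V : Set X)).Normal := hsat ▸ hn.comap f
    have h1 := h.inf_le_pCore (H := (T : Subgroup X) ⊔ Subgroup.centralizer (V : Set X))
      (sup_le h.T_le h.centralizer_vMod_le)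
    exact h.not_le_pCore ((le_inf le_rfl le_sup_left).trans h1)
  have hmin : IsPMinimal p ↥P := CfsgLib.CharP.isPMinimal_of_one T' hnorm huniq
  have hOp : pCore p ↥P = ⊥ := by
    haveI : (pCore p ↥P).Normal := CfsgLib.ConjFunctor.pCore_normal p
    set K := (pCore p ↥P).comap f with hK
    haveI : K.Normal := Subgroup.Normal.comap inferInstance f
    have hKle : K ≤ (T : Subgroup X) ⊔ Subgroup.centralizer (V : Set X) :=
      hsat ▸ Subgroup.comap_mono (CfsgLib.ConjFunctor.pCore_le_sylow T')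
    have h1 := h.inf_le_pCore (H := K) (hKle.trans (sup_le h.T_le h.centralizer_vMod_le))
    rw [eq_bot_iff]
    intro y hy
    obtain ⟨x, rfl⟩ := hfs y
    have hxK : x ∈ K := hy
    have hx := hKle hxK
    rw [← SetLike.mem_coe, Subgroup.mul_normal] at hx
    obtain ⟨t, ht, c, hc, rfl⟩ := hx
    have hcK : c ∈ K := by
      have : c ∈ f.ker := hfker ▸ hc
      exact Subgroup.mem_comap.mpr (MonoidHom.mem_ker.mp this ▸ one_mem _)
    have htQ : t ∈ pCore p X := h1 ⟨ht, by simpa using mul_mem hxK (inv_mem hcK)⟩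
    have htC : t ∈ f.ker := hfker ▸ h.pCore_le_centralizer_vMod htQ
    rw [Subgroup.mem_bot, map_mul, MonoidHom.mem_ker.mp htC, MonoidHom.mem_ker.mp (hfker ▸ hc : c ∈ f.ker),
      mul_one]
  have hmapT : (T' : Subgroup ↥P).map P.subtype = (T : Subgroup X).map g := by
    rw [hT', Sylow.coe_mapSurjective, Subgroup.map_map]
    rfl
  refine ⟨T', M', hmin, hOp, hcoat, hTM', hmapT, ?_, ?_⟩
  · rintro _ ⟨⟨x, rfl⟩, hx⟩
    refine ⟨f x, ⟨x, h.centralizer_zOne_le (Subgroup.mem_centralizer_iff.mpr fun z hz => ?_), rfl⟩, rfl⟩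
    have hzV : z ∈ V := Subgroup.subset_normalClosure hz
    refine ((commute_inl_iff V x ⟨z, hzV⟩).mp ?_).symm
    refine (Subgroup.mem_centralizer_iff.mp hx _ ⟨⟨_, rfl⟩, Subgroup.mem_centralizer_iff.mpr ?_⟩).symm
    rw [hmapT]
    rintro _ ⟨t, ht, rfl⟩
    exact (commute_inl_iff V t _).mpr (Subgroup.mem_centralizer_iff.mp (mem_zOne_iff.mp hz).2.1 t ht)
  · obtain ⟨A, hA, hAQ⟩ := h.exists_offender
    refine ⟨A.map g, Subgroup.map_le_range g A, fun hle => hAQ fun a ha => ?_, ?_, ?_, ?_⟩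
    · refine hTC a (hA.1 ha) (Subgroup.mem_centralizer_iff.mpr fun v hv => ?_)
      exact ((commute_inl_iff V a ⟨v, hv⟩).mp
        (Subgroup.mem_centralizer_iff.mp (hle ⟨a, ha, rfl⟩) _ ⟨⟨v, hv⟩, rfl⟩).symm).symm
    · intro B' hB'
      set B := A ⊓ B'.comap g with hB
      have hBmap : B.map g = B' := by
        refine le_antisymm ?_ fun y hy => ?_
        · rintro _ ⟨b, hb, rfl⟩; exact hb.2
        · obtain ⟨a, ha, rfl⟩ := hB' hy
          exact ⟨a, ⟨ha, hy⟩, rfl⟩
      have hBk : B ⊓ g.ker = A ⊓ Subgroup.centralizer (V : Set X) := by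
        rw [hker, hB]
        refine le_antisymm (inf_le_inf_right _ inf_le_left) (le_inf (le_inf inf_le_left ?_) inf_le_right)
        intro a ha
        show g a ∈ B'
        have : a ∈ g.ker := hker ▸ ha.2
        rw [MonoidHom.mem_ker.mp this]
        exact one_mem _
      have hab := (CfsgLib.LocalP.isElementaryAbelian_iff.mp hA.2.1).1
      have hBV : B ⊓ (V ⊓ Subgroup.centralizer (B : Set X)) ≤ V ⊓ Subgroup.centralizer (A : Set X) := by
        rw [← h.inf_vMod_eq hA]
        exact le_inf (inf_le_right.trans inf_le_left) (inf_le_left.trans inf_le_left)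
      have hel : IsElementaryAbelian p (B ⊔ (V ⊓ Subgroup.centralizer (B : Set X))) :=
        CfsgLib.LocalP.isElementaryAbelian_sup (CfsgLib.LocalP.isElementaryAbelian_mono hA.2.1 inf_le_left)
          (CfsgLib.LocalP.isElementaryAbelian_mono h.vMod_el inf_le_left)
          fun b hb v hv => Subgroup.mem_centralizer_iff.mp hv.2 b hb
      have h1 := hA.2.2 _ (sup_le (inf_le_left.trans hA.1) (inf_le_left.trans h.vMod_le_T)) hel
      have h2 := CfsgLib.LocalP.card_mul_le_card_sup_mul_card_inf B (V ⊓ Subgroup.centralizer (B : Set X))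
      have h3 : Nat.card B * Nat.card ↥(V ⊓ Subgroup.centralizer (B : Set X)) ≤
          Nat.card A * Nat.card ↥(V ⊓ Subgroup.centralizer (A : Set X)) :=
        h2.trans (Nat.mul_le_mul h1 (Subgroup.card_le_of_le hBV))
      rw [← hBmap, card_fix_map, card_fix_map]
      have e1 := card_eq_card_map_mul g B
      have e2 := card_eq_card_map_mul g A
      rw [hBk] at e1
      rw [hker] at e2
      rw [e1, e2] at h3
      have hpos : 0 < Nat.card ↥(A ⊓ Subgroup.centralizer (V : Set X)) := Nat.card_pos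
      refine Nat.le_of_mul_le_mul_left ?_ hpos
      calc _ = Nat.card (B.map g) * Nat.card ↥(A ⊓ Subgroup.centralizer (V : Set X)) *
            Nat.card ↥(V ⊓ Subgroup.centralizer (B : Set X)) := by ring
        _ ≤ _ := h3
        _ = _ := by ring
    · rw [Subgroup.commutator_le]
      rintro _ ⟨a, ha, rfl⟩ _ ⟨b, hb, rfl⟩
      have : ⁅g a, g b⁆ = 1 := by
        rw [← map_commutatorElement, commutatorElement_eq_one_iff_mul_comm.mpr
          ((CfsgLib.LocalP.isElementaryAbelian_iff.mp hA.2.1).1 a ha b hb), map_one]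
      rw [this]
      exact one_mem _
    · rintro _ ⟨a, ha, rfl⟩
      rw [← map_pow, (CfsgLib.LocalP.isElementaryAbelian_iff.mp hA.2.1).2 a ha, map_one]
      exact one_mem _

/-- The decomposition into blocks. -/
theorem exists_blocks :
    ∃ (r : ℕ) (E N : Fin r → Subgroup X), Blocks p (vMod p (T : Subgroup X)) (T : Subgroup X) E N := by
  set V := vMod p (T : Subgroup X) with hVdef
  set g := toAmb V with hg
  obtain ⟨T', M', hmin, hOp, hcoat, hTM', hmapT₀, hCT, hoff⟩ := h.exists_ambient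
  have hmapT : (T' : Subgroup ↥g.range).map g.range.subtype = (T : Subgroup X).map g := hmapT₀
  have hVel : IsElementaryAbelian p (vAmb V) := by
    rw [CfsgLib.LocalP.isElementaryAbelian_iff]
    have hab := CfsgLib.LocalP.isElementaryAbelian_iff.mp h.vMod_el
    refine ⟨?_, ?_⟩
    · rintro _ ⟨a, rfl⟩ _ ⟨b, rfl⟩
      rw [← map_mul, ← map_mul, show a * b = b * a from Subtype.ext (hab.1 a a.2 b b.2)]
    · rintro _ ⟨a, rfl⟩
      rw [← map_pow, show a ^ p = 1 from Subtype.ext (by simpa using hab.2 a a.2), map_one]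
  have hfaith : g.range ⊓ Subgroup.centralizer (vAmb V : Set (Amb V)) = ⊥ := by
    rw [eq_bot_iff]
    rintro _ ⟨⟨x, rfl⟩, hx⟩
    have hxk : x ∈ g.ker := by
      rw [hg, ker_toAmb]
      exact Subgroup.mem_centralizer_iff.mpr fun v hv =>
        ((commute_inl_iff V x ⟨v, hv⟩).mp (Subgroup.mem_centralizer_iff.mp hx _ ⟨⟨v, hv⟩, rfl⟩).symm).symm
    exact Subgroup.mem_bot.mpr hxk
  obtain ⟨r, E', hr, hEP, hcomm, htop, htrans, hperm, hgen, hcross, hmodel⟩ :=
    odd_decomposition h.ne_two (vAmb V) g.range hVel (vAmb_le_normalizer V) hfaith hmin T' M' hcoat hTM' hOp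
      hoff hCT
  rw [hmapT] at htop htrans hperm
  set E : Fin r → Subgroup X := fun i => (E' i).comap g with hEdef
  set N' : Fin r → Subgroup (Amb V) := fun i => ⁅vAmb V, E' i⁆ with hN'def
  set N : Fin r → Subgroup X := fun i => backV V (N' i) with hNdef
  have hN'V : ∀ i, N' i ≤ vAmb V := fun i => by
    refine Subgroup.commutator_le.mpr fun v hv e he => ?_
    have h1 := (Subgroup.mem_normalizer_iff.mp (vAmb_le_normalizer V (hEP i he)) _).mp (inv_mem hv)
    rw [show ⁅v, e⁆ = v * (e * v⁻¹ * e⁻¹) by simp [commutatorElement_def, mul_assoc]]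
    exact mul_mem hv h1
  have hEmap : ∀ i, (E i).map g = E' i := fun i => Subgroup.map_comap_eq_self (hEP i)
  have hEn : ∀ i, E' i ≤ Subgroup.normalizer (vAmb V : Set (Amb V)) := fun i =>
    (hEP i).trans (vAmb_le_normalizer V)
  -- no fixed points
  have hno : ∀ i, N' i ⊓ Subgroup.centralizer (E' i : Set (Amb V)) = ⊥ := by
    intro i
    obtain ⟨n, hn, F, iF, iT, hF, hiso, hact⟩ := hmodel i
    haveI : CharP F p := charP_of_card_eq_prime_pow (f := n) hF
    refine commutator_inf_centralizer_eq_bot h.ne_two hVel (hEn i) hiso ?_ hact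
    refine hgen.ge.trans (sup_le (le_trans ?_ le_sup_right) (iSup_le fun j => ?_))
    · exact le_inf inf_le_left (inf_le_right.trans (Subgroup.centralizer_le (le_iSup E' i)))
    · by_cases hji : j = i
      · exact hji ▸ le_sup_left
      · exact le_trans (le_inf (hN'V j) (Subgroup.commutator_eq_bot_iff_le_centralizer.mp (hcross j i hji)))
          le_sup_right
  have hNV : ∀ i, N i ≤ V := fun i x hx => ((mem_backV V).mp hx).1
  have hcent : ∀ (e : X) (i : Fin r), g e ∈ Subgroup.centralizer (N' i : Set (Amb V)) →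
      e ∈ Subgroup.centralizer (N i : Set X) := fun e i he => Subgroup.mem_centralizer_iff.mpr fun x hx => by
    obtain ⟨hxV, hx'⟩ := (mem_backV V).mp hx
    exact ((commute_inl_iff V e ⟨x, hxV⟩).mp (Subgroup.mem_centralizer_iff.mp he _ hx').symm).symm
  have hconj : ∀ (t : X) (i j : Fin r), (E' i).map (MulAut.conj (g t)).toMonoidHom = E' j →
      conjOf t (E i) = E j ∧ conjOf t (N i) = N j := by
    intro t i j hij
    refine ⟨?_, conjOf_backV V t ?_⟩
    · ext x
      rw [mem_conjOf]
      show g (t⁻¹ * x * t) ∈ E' i ↔ g x ∈ E' j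
      rw [← hij, Subgroup.mem_map_equiv, MulAut.conj_symm_apply, map_mul, map_mul, map_inv]
    · rw [Subgroup.map_commutator, hij]
      congr 1
      exact mem_normalizer_iff_conjOf.mp (vAmb_le_normalizer V ⟨t, rfl⟩)
  have hC₀ : ∀ v : ↥V, (SemidirectProduct.inl v : Amb V) ∈
      Subgroup.centralizer (((⨆ i, E' i) : Subgroup (Amb V)) : Set (Amb V)) →
      (v : X) ∈ Subgroup.centralizer (((⨆ i, E i) : Subgroup X) : Set X) := by
    intro v hv
    refine Subgroup.mem_centralizer_iff.mpr fun e he => ?_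
    have h1 : g e ∈ ⨆ i, E' i := by
      have := Subgroup.mem_map_of_mem g he
      rw [Subgroup.map_iSup] at this
      simpa only [hEmap] using this
    exact (commute_inl_iff V e v).mp (Subgroup.mem_centralizer_iff.mp hv _ h1)
  have hgen' : (V ⊓ Subgroup.centralizer (((⨆ i, E i) : Subgroup X) : Set X)) ⊔ (⨆ i, N i) = V := by
    refine le_antisymm (sup_le inf_le_left (iSup_le hNV)) fun v hv => ?_
    set S := (V ⊓ Subgroup.centralizer (((⨆ i, E i) : Subgroup X) : Set X)) ⊔ (⨆ i, N i)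
    have hle : vAmb V ≤ (S.subgroupOf V).map (SemidirectProduct.inl : ↥V →* Amb V) := by
      refine hgen.ge.trans (sup_le ?_ (iSup_le fun i => ?_))
      · rintro _ ⟨⟨w, rfl⟩, hw⟩
        exact ⟨w, Subgroup.mem_sup_left ⟨w.2, hC₀ w hw⟩, rfl⟩
      · intro y hy
        obtain ⟨w, rfl⟩ := hN'V i hy
        exact ⟨w, Subgroup.mem_sup_right (le_iSup N i ((mem_backV V).mpr ⟨w.2, hy⟩)), rfl⟩
    obtain ⟨w, hw, hwv⟩ := hle (⟨⟨v, hv⟩, rfl⟩ : SemidirectProduct.inl ⟨v, hv⟩ ∈ vAmb V)
    rw [SemidirectProduct.inl_inj] at hwv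
    subst hwv
    exact hw
  have hcross' : ∀ i j, i ≠ j → E j ≤ Subgroup.centralizer (N i : Set X) := fun i j hij e he =>
    hcent e i (Subgroup.le_centralizer_iff.mp
      (Subgroup.commutator_eq_bot_iff_le_centralizer.mp (hcross i j hij)) he)
  have htop' : (⨆ i, E i) ⊔ (T : Subgroup X) = ⊤ := by
    refine top_le_iff.mp fun x _ => ?_
    have hC : g.ker ≤ (⨆ i, E i) ⊔ (T : Subgroup X) :=
      (MonoidHom.ker_le_comap g (E' ⟨0, hr⟩)).trans ((le_iSup E ⟨0, hr⟩).trans le_sup_left)
    have h1 : ((⨆ i, E i) ⊔ (T : Subgroup X)).map g = g.range := by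
      rw [Subgroup.map_sup, Subgroup.map_iSup]
      simp only [hEmap]
      exact htop
    have h2 : x ∈ (((⨆ i, E i) ⊔ (T : Subgroup X)).map g).comap g := by
      rw [h1]; exact ⟨x, rfl⟩
    rwa [Subgroup.comap_map_eq, sup_eq_left.mpr hC] at h2
  have hperm' : ∀ t ∈ (T : Subgroup X), ∀ i, ∃ j, conjOf t (E i) = E j ∧ conjOf t (N i) = N j := by
    intro t ht i
    obtain ⟨j, hj⟩ := hperm (g t) ⟨t, ht, rfl⟩ i
    exact ⟨j, hconj t i j hj⟩
  have hEnorm : ∀ i, E i ≤ Subgroup.normalizer (N i : Set X) := by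
    intro i e he
    obtain ⟨-, -, -, -, -, -, -, hN, -⟩ := hmodel i
    exact mem_normalizer_iff_conjOf.mpr
      (conjOf_backV V e (mem_normalizer_iff_conjOf.mp (hN (show g e ∈ E' i from he))))
  have hnormal : (⨆ i, E i).Normal := by
    refine Subgroup.normalizer_eq_top_iff.mp (top_le_iff.mp (htop'.ge.trans (sup_le Subgroup.le_normalizer ?_)))
    intro t ht
    refine mem_normalizer_iff_conjOf.mpr (Subgroup.eq_of_le_of_card_ge ?_ (card_conjOf _ _).ge)
    simp only [conjOf, Subgroup.map_iSup]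
    refine iSup_le fun i => ?_
    obtain ⟨j, hj, -⟩ := hperm' t ht i
    exact hj.le.trans (le_iSup E j)
  have hEiN : ∀ i, (⨆ j, E j) ≤ Subgroup.normalizer (E i : Set X) := by
    intro i
    refine iSup_le fun j e he => ?_
    by_cases hji : j = i
    · subst hji
      exact Subgroup.le_normalizer he
    rw [Subgroup.mem_normalizer_iff]
    intro x
    have hc : g e ∈ Subgroup.centralizer (E' i : Set (Amb V)) :=
      Subgroup.commutator_eq_bot_iff_le_centralizer.mp (hcomm j i hji) he
    show g x ∈ E' i ↔ g (e * x * e⁻¹) ∈ E' i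
    rw [map_mul, map_mul, map_inv]
    constructor
    · intro hx
      rwa [← Subgroup.mem_centralizer_iff.mp hc _ hx, mul_inv_cancel_right]
    · intro hx
      have h1 := Subgroup.mem_centralizer_iff.mp hc _ hx
      have e1 : g x = g e * g x * (g e)⁻¹ := by
        calc g x = (g e)⁻¹ * (g e * g x * (g e)⁻¹ * g e) := by group
          _ = (g e)⁻¹ * (g e * (g e * g x * (g e)⁻¹)) := by rw [h1]
          _ = _ := by group
      rw [e1]; exact hx
  refine ⟨r, E, N, ?_⟩
  exact
    { pos := hr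
      ne_two := h.ne_two
      Vel := h.vMod_el
      Vn := inferInstance
      isP := T.2
      N_le := hNV
      C_le := fun i => by rw [← ker_toAmb]; exact MonoidHom.ker_le_comap g (E' i)
      E_norm := hEnorm
      cross := hcross'
      gen := hgen'
      indep := fun i => by
        rw [eq_bot_iff]
        rintro x ⟨hxN, hx⟩
        obtain ⟨hxV, hx'⟩ := (mem_backV V).mp hxN
        have h1 : x ∈ Subgroup.centralizer (E i : Set X) := by
          refine (sup_le ?_ (iSup₂_le fun j hj => ?_) :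
            (V ⊓ Subgroup.centralizer ((⨆ i, E i : Subgroup X) : Set X)) ⊔ ⨆ j ∈ {j | j ≠ i}, N j ≤
              Subgroup.centralizer (E i : Set X)) hx
          · exact inf_le_right.trans (Subgroup.centralizer_le (le_iSup E i))
          · exact Subgroup.le_centralizer_iff.mp (hcross' j i hj)
        have h2 : (SemidirectProduct.inl ⟨x, hxV⟩ : Amb V) ∈
            N' i ⊓ Subgroup.centralizer (E' i : Set (Amb V)) := by
          refine ⟨hx', Subgroup.mem_centralizer_iff.mpr fun e he => ?_⟩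
          obtain ⟨y, rfl⟩ := hEP i he
          exact (commute_inl_iff V y _).mpr (Subgroup.mem_centralizer_iff.mp h1 y he)
        rw [hno i, Subgroup.mem_bot, ← map_one (SemidirectProduct.inl : ↥V →* Amb V),
          SemidirectProduct.inl_inj] at h2
        exact Subgroup.mem_bot.mpr (congrArg Subtype.val h2)
      perm := hperm'
      trans := fun i j => by
        obtain ⟨_, ⟨t, ht, rfl⟩, htj⟩ := htrans i j
        exact ⟨t, ht, hconj t i j htj⟩
      top := htop'
      nat := fun i => by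
        obtain ⟨n, hn, F, iF, iT, hF, hiso, hEN, -, ρ, ψ, hρ, hψ, hker, hact⟩ := hmodel i
        refine ⟨F, iF, iT, charP_of_card_eq_prime_pow (f := n) hF, hEnorm i, bot_le, ?_⟩
        let gE : ↥(E i) →* ↥(E' i) := g.subgroupComap (E' i)
        have hgE : Function.Surjective gE := fun y => by
          obtain ⟨x, hx⟩ := hEP i y.2
          exact ⟨⟨x, show g x ∈ E' i by rw [hx]; exact y.2⟩, Subtype.ext hx⟩
        let ι : ↥(N i) →* ↥(N' i) :=
          ((SemidirectProduct.inl : ↥V →* Amb V).comp (Subgroup.inclusion (hNV i))).codRestrict (N' i)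
            fun x => ((mem_backV V).mp x.2).snd

        have hι : Function.Surjective ι := fun y => by
          obtain ⟨w, hw⟩ := hN'V i y.2
          exact ⟨⟨w, (mem_backV V).mpr ⟨w.2, show SemidirectProduct.inl w ∈ N' i by rw [hw]; exact y.2⟩⟩,
            Subtype.ext hw⟩
        refine ⟨ρ.comp gE, ψ.comp ι, ?_, hψ.comp hι, fun u => ?_, fun e u => ?_⟩
        · exact MonoidHom.range_eq_top.mpr ((MonoidHom.range_eq_top.mp hρ).comp hgE)
        · show ψ (ι u) = 1 ↔ _
          rw [hker]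
          constructor
          · intro h1
            have h2 : ((ι u : ↥(N' i)) : Amb V) ∈ (⊥ : Subgroup (Amb V)) := hno i ▸ h1
            rw [Subgroup.mem_bot] at h2
            have h3 : Subgroup.inclusion (hNV i) u = 1 := SemidirectProduct.inl_injective (h2.trans (map_one _).symm)
            exact Subgroup.mem_bot.mpr (congrArg Subtype.val h3)
          · intro h1
            rw [show u = 1 from Subtype.ext (Subgroup.mem_bot.mp h1), map_one]
            exact one_mem _
        · obtain ⟨w, hw, hwψ⟩ := hact (gE e) (ι u)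
          obtain ⟨v, rfl⟩ := hι w
          refine ⟨v, ?_, hwψ⟩
          have h1 := hw
          change (SemidirectProduct.inl (Subgroup.inclusion (hNV i) v) : Amb V) =
            toAmb V e * SemidirectProduct.inl (Subgroup.inclusion (hNV i) u) * (toAmb V e)⁻¹ at h1
          rw [conj_inl, SemidirectProduct.inl_inj] at h1
          exact congrArg Subtype.val h1
      sylow := fun i => by
        refine CfsgLib.Alperin.not_dvd_relIndex_inf T (N := ⨆ j, E j) ?_ (le_iSup E i) (hEiN i)
        refine CfsgLib.Alperin.not_dvd_relIndex_inf T (N := ⊤) ?_ le_top ?_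
        · rw [inf_top_eq, Subgroup.relIndex_top_right]; exact T.not_dvd_index
        · rw [Subgroup.normalizer_eq_top_iff.mpr hnormal]
      faith := fun x hx hxN => by
        set C := Subgroup.centralizer (V : Set X) with hCdef
        haveI hCn : C.Normal := inferInstance
        set R := (T : Subgroup X) ⊓ ⨅ i, Subgroup.centralizer (N i : Set X) with hR
        have key : ∀ i, ∀ e ∈ E i, ∀ y ∈ R, e * y * e⁻¹ * y⁻¹ ∈ C := by
          intro i e he y hy
          refine Subgroup.mem_centralizer_iff.mpr fun v hv => ?_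
          have hle : (V ⊓ Subgroup.centralizer (((⨆ i, E i) : Subgroup X) : Set X)) ⊔ (⨆ j, N j) ≤
              Subgroup.centralizer ({e * y * e⁻¹ * y⁻¹} : Set X) := by
            refine sup_le ?_ (iSup_le fun j => ?_)
            · rintro w ⟨hwV, hwE⟩
              rw [Subgroup.mem_centralizer_singleton_iff]
              have hy0 : y⁻¹ * w * y ∈ Subgroup.centralizer (((⨆ i, E i) : Subgroup X) : Set X) := by
                refine Subgroup.mem_centralizer_iff.mpr fun d hd => ?_
                have hd' : y * d * y⁻¹ ∈ ⨆ i, E i := hnormal.conj_mem d hd y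
                have h1 := Subgroup.mem_centralizer_iff.mp hwE _ hd'
                calc d * (y⁻¹ * w * y) = y⁻¹ * (y * d * y⁻¹ * w) * y := by group
                  _ = y⁻¹ * (w * (y * d * y⁻¹)) * y := by rw [h1]
                  _ = _ := by group
              have h2 := Subgroup.mem_centralizer_iff.mp hy0 e⁻¹ (inv_mem (le_iSup E i he))
              have h3 := Subgroup.mem_centralizer_iff.mp hwE e (le_iSup E i he)
              calc w * (e * y * e⁻¹ * y⁻¹) = e * w * (y * e⁻¹ * y⁻¹) := by rw [h3]; group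
                _ = e * y * (y⁻¹ * w * y * e⁻¹) * y⁻¹ := by group
                _ = e * y * (e⁻¹ * (y⁻¹ * w * y)) * y⁻¹ := by rw [h2]
                _ = _ := by group
            · intro w hw
              rw [Subgroup.mem_centralizer_singleton_iff]
              have hyj : y ∈ Subgroup.centralizer (N j : Set X) := Subgroup.mem_iInf.mp hy.2 j
              have heN : e ∈ Subgroup.normalizer (N j : Set X) := by
                by_cases hji : j = i
                · exact hji ▸ hEnorm i he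
                · exact Subgroup.centralizer_le_normalizer _ (hcross' j i hji he)
              have hw' : e⁻¹ * w * e ∈ N j := (Subgroup.mem_normalizer_iff''.mp heN w).mp hw
              have h1 := Subgroup.mem_centralizer_iff.mp hyj _ hw'
              have h2 := Subgroup.mem_centralizer_iff.mp hyj _ hw
              calc w * (e * y * e⁻¹ * y⁻¹) = e * ((e⁻¹ * w * e) * y) * e⁻¹ * y⁻¹ := by group
                _ = e * (y * (e⁻¹ * w * e)) * e⁻¹ * y⁻¹ := by rw [h1]
                _ = e * y * e⁻¹ * (w * y⁻¹) := by group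
                _ = e * y * e⁻¹ * (y⁻¹ * w) := by rw [(Commute.inv_right h2).eq]
                _ = _ := by group
          exact Subgroup.mem_centralizer_singleton_iff.mp (hle (hgen'.ge hv))
        have hKn : (R ⊔ C).Normal := by
          refine Subgroup.normalizer_eq_top_iff.mp (top_le_iff.mp (htop'.ge.trans (sup_le (iSup_le fun i => ?_) ?_)))
          · intro e he
            refine mem_normalizer_iff_conjOf.mpr (Subgroup.eq_of_le_of_card_ge ?_ (card_conjOf _ _).ge)
            show Subgroup.map _ (R ⊔ C) ≤ _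
            rw [Subgroup.map_sup]
            refine sup_le (conjOf_le_iff.mpr fun y hy => ?_)
              ((conjOf_le_iff.mpr fun y hy => hCn.conj_mem y hy e).trans le_sup_right)
            have h1 := mul_mem (Subgroup.mem_sup_right (S := R) (key i e he y hy))
              (Subgroup.mem_sup_left (T := C) hy)
            simpa using h1
          · intro t ht
            refine mem_normalizer_iff_conjOf.mpr (Subgroup.eq_of_le_of_card_ge ?_ (card_conjOf _ _).ge)
            show Subgroup.map _ (R ⊔ C) ≤ _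
            rw [Subgroup.map_sup]
            refine sup_le (conjOf_le_iff.mpr fun y hy => Subgroup.mem_sup_left (Subgroup.mem_inf.mpr ⟨?_, ?_⟩))
              ((conjOf_le_iff.mpr fun y hy => hCn.conj_mem y hy t).trans le_sup_right)
            · exact mul_mem (mul_mem ht hy.1) (inv_mem ht)
            · refine Subgroup.mem_iInf.mpr fun j => Subgroup.mem_centralizer_iff.mpr fun w hw => ?_
              obtain ⟨k, -, hk⟩ := hperm' t⁻¹ (inv_mem ht) j
              have hw' : t⁻¹ * w * t ∈ N k := by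
                have h0 := hk.le (conj_mem_conjOf (g := t⁻¹) hw)
                simpa using h0
              have h1 := Subgroup.mem_centralizer_iff.mp (Subgroup.mem_iInf.mp hy.2 k) _ hw'
              calc w * (t * y * t⁻¹) = t * (t⁻¹ * w * t * y) * t⁻¹ := by group
                _ = t * (y * (t⁻¹ * w * t)) * t⁻¹ := by rw [h1]
                _ = _ := by group
        have h2 : R ≤ pCore p X := le_trans (le_inf inf_le_left le_sup_left)
          (h.inf_le_pCore (H := R ⊔ C) (sup_le (inf_le_left.trans h.T_le) h.centralizer_vMod_le))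
        exact h.pCore_le_centralizer_vMod (h2 ⟨hx, Subgroup.mem_iInf.mpr hxN⟩) }

end Core

end Decomp

section Thompson

variable {X : Type u} [Group X] {p : ℕ}
variable [Finite X] [Fact p.Prime] {T : Sylow p X} {M : Subgroup X}
  {r : ℕ} {E N : Fin r → Subgroup X}

namespace Core

variable (h : Core p T M)

include h

/-- `(A ∩ C(V))V` is again in `𝒜(T)`, inside the core. -/
theorem replace_mem (D : Blocks p (vMod p (T : Subgroup X)) (T : Subgroup X) E N) {A : Subgroup X}
    (hA : A ∈ maxElemIn p (T : Subgroup X)) :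
    (A ⊓ Subgroup.centralizer (vMod p (T : Subgroup X) : Set X)) ⊔ vMod p (T : Subgroup X) ∈
        maxElemIn p (T : Subgroup X) ∧
      (A ⊓ Subgroup.centralizer (vMod p (T : Subgroup X) : Set X)) ⊔ vMod p (T : Subgroup X) ≤ pCore p X := by
  set V := vMod p (T : Subgroup X)
  set B := A ⊓ Subgroup.centralizer (V : Set X)
  have hAC : B ≤ pCore p X := le_trans (inf_le_inf_right _ hA.1) h.inf_centralizer_vMod.le
  have hle : B ⊔ V ≤ pCore p X := sup_le hAC fun v hv => (h.mem_vMod hv).1
  have hel : IsElementaryAbelian p (B ⊔ V) :=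
    CfsgLib.LocalP.isElementaryAbelian_sup (CfsgLib.LocalP.isElementaryAbelian_mono hA.2.1 inf_le_left) h.vMod_el
      fun b hb v hv => (Subgroup.mem_centralizer_iff.mp hb.2 v hv).symm
  refine ⟨⟨hle.trans h.pCore_le_T, hel, fun C hC hCel => (hA.2.2 C hC hCel).trans ?_⟩, hle⟩
  obtain ⟨heq, -, -⟩ := D.offender_structure hA.1
    (CfsgLib.LocalP.isElementaryAbelian_iff.mp hA.2.1).1 (h.card_le_of_maxElemIn hA)
  have hBV : B ⊓ V = V ⊓ Subgroup.centralizer (A : Set X) := by
    rw [← h.inf_vMod_eq hA]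
    refine le_antisymm (le_inf inf_le_right (inf_le_left.trans inf_le_left))
      (le_inf (le_inf inf_le_right ?_) inf_le_left)
    exact inf_le_left.trans (fun v hv => h.pCore_le_centralizer_vMod (h.mem_vMod hv).1)
  have h1 := card_sup_mul_inf (A := B) (B := V) (fun v hv => by
    rw [Subgroup.mem_normalizer_iff]
    intro b
    constructor
    · intro hb
      rwa [Subgroup.mem_centralizer_iff.mp hb.2 v hv, mul_inv_cancel_right]
    · intro hb
      have h2 := Subgroup.mem_centralizer_iff.mp hb.2 v hv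
      have h3 : b = v * b * v⁻¹ := by
        calc b = v⁻¹ * (v * b * v⁻¹ * v) := by group
          _ = v⁻¹ * (v * (v * b * v⁻¹)) := by rw [h2]
          _ = _ := by group
      rw [h3]; exact hb)
  rw [hBV, mul_comm (Nat.card B), heq] at h1
  exact (Nat.eq_of_mul_eq_mul_right Nat.card_pos h1).ge

theorem zThompson_le_mem {A : Subgroup X} (hA : A ∈ maxElemIn p (T : Subgroup X)) :
    zThompson p (T : Subgroup X) ≤ A := fun z hz => by
  obtain ⟨hzJ, hzc, hzp⟩ := mem_zThompson_iff.mp hz
  exact CfsgLib.LocalP.mem_of_centralizes hA (CfsgLib.LocalP.thompsonSubgroupOf_le _ hzJ) hzp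
    fun a ha => Subgroup.mem_centralizer_iff.mp hzc a (le_thompson hA ha)

theorem mem_zThompson_of_centralizes {x : X} (hxT : x ∈ (T : Subgroup X)) (hxp : x ^ p = 1)
    (hx : x ∈ Subgroup.centralizer (thompsonSubgroupOf p (T : Subgroup X) : Set X)) :
    x ∈ zThompson p (T : Subgroup X) := by
  obtain ⟨A, hA⟩ := CfsgLib.LocalP.exists_maxElemIn (p := p) (T : Subgroup X)
  exact mem_zThompson_iff.mpr ⟨le_thompson hA (CfsgLib.LocalP.mem_of_centralizes hA hxT hxp
    fun a ha => Subgroup.mem_centralizer_iff.mp hx a (le_thompson hA ha)), hx, hxp⟩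

theorem zOne_le_zThompson : zOne p (T : Subgroup X) ≤ zThompson p (T : Subgroup X) := fun z hz => by
  obtain ⟨hzT, hzc, hzp⟩ := mem_zOne_iff.mp hz
  exact h.mem_zThompson_of_centralizes hzT hzp
    (Subgroup.centralizer_le (CfsgLib.LocalP.thompsonSubgroupOf_le _) hzc)

theorem vMod_le_wMod : vMod p (T : Subgroup X) ≤ wMod p (T : Subgroup X) :=
  Subgroup.normalClosure_mono h.zOne_le_zThompson

/-- Every member of `𝒜(T)` inside the core contains `W`. -/
theorem wMod_le (D : Blocks p (vMod p (T : Subgroup X)) (T : Subgroup X) E N) {A : Subgroup X}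
    (hA : A ∈ maxElemIn p (T : Subgroup X)) (hAQ : A ≤ pCore p X) : wMod p (T : Subgroup X) ≤ A := by
  suffices key : ∀ x ∈ wMod p (T : Subgroup X), ∀ B ∈ maxElemIn p (T : Subgroup X), B ≤ pCore p X → x ∈ B from
    fun x hx => key x hx A hA hAQ
  intro x hx
  induction hx using Subgroup.closure_induction with
  | mem x hx =>
    rw [Group.mem_conjugatesOfSet_iff] at hx
    obtain ⟨z, hz, hzx⟩ := hx
    obtain ⟨g, rfl⟩ := isConj_iff.mp hzx
    intro B hB hBQ
    haveI := CfsgLib.ConjFunctor.pCore_normal (G := X) p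
    have hB' : conjOf g⁻¹ B ∈ maxElemIn p (T : Subgroup X) := by
      refine ⟨le_trans (conjOf_le_iff.mpr fun y hy => ?_) h.pCore_le_T,
        CfsgLib.LocalP.isElementaryAbelian_map _ hB.2.1, fun C hC hCel => ?_⟩
      · exact Subgroup.Normal.conj_mem inferInstance y (hBQ hy) g⁻¹
      · rw [card_conjOf]; exact hB.2.2 C hC hCel
    have h1 := h.zThompson_le_mem hB' hz
    rw [mem_conjOf, inv_inv] at h1
    exact h1
  | one => exact fun B _ _ => one_mem B
  | mul a b _ _ ha hb => exact fun B hB hBQ => mul_mem (ha B hB hBQ) (hb B hB hBQ)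
  | inv a _ ha => exact fun B hB hBQ => inv_mem (ha B hB hBQ)

theorem exists_mem_pCore (D : Blocks p (vMod p (T : Subgroup X)) (T : Subgroup X) E N) :
    ∃ A ∈ maxElemIn p (T : Subgroup X), A ≤ pCore p X := by
  obtain ⟨A, hA⟩ := CfsgLib.LocalP.exists_maxElemIn (p := p) (T : Subgroup X)
  exact ⟨_, h.replace_mem D hA⟩

theorem wMod_le_pCore (D : Blocks p (vMod p (T : Subgroup X)) (T : Subgroup X) E N) :
    wMod p (T : Subgroup X) ≤ pCore p X := by
  obtain ⟨A, hA, hAQ⟩ := h.exists_mem_pCore D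
  exact (h.wMod_le D hA hAQ).trans hAQ

theorem wMod_el (D : Blocks p (vMod p (T : Subgroup X)) (T : Subgroup X) E N) :
    IsElementaryAbelian p (wMod p (T : Subgroup X)) := by
  obtain ⟨A, hA, hAQ⟩ := h.exists_mem_pCore D
  exact CfsgLib.LocalP.isElementaryAbelian_mono hA.2.1 (h.wMod_le D hA hAQ)

/-- `W = V·C_W(A)`. -/
theorem wMod_le_sup (D : Blocks p (vMod p (T : Subgroup X)) (T : Subgroup X) E N) {A : Subgroup X}
    (hA : A ∈ maxElemIn p (T : Subgroup X)) :
    wMod p (T : Subgroup X) ≤ vMod p (T : Subgroup X) ⊔ (wMod p (T : Subgroup X) ⊓ A) := by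
  set V := vMod p (T : Subgroup X)
  set W := wMod p (T : Subgroup X)
  have hab := (CfsgLib.LocalP.isElementaryAbelian_iff.mp hA.2.1).1
  obtain ⟨heq, -, -⟩ := D.offender_structure hA.1 hab (h.card_le_of_maxElemIn hA)
  set B := A ⊓ Subgroup.centralizer (V : Set X)
  obtain ⟨hA', hA'Q⟩ := h.replace_mem D hA
  have hWA' := h.wMod_le D hA' hA'Q
  have hWel := h.wMod_el D
  have hab' := (CfsgLib.LocalP.isElementaryAbelian_iff.mp hA'.2.1).1
  have hBW : ∀ b ∈ B, ∀ w ∈ W, b * w = w * b := fun b hb w hw =>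
    hab' b (Subgroup.mem_sup_left hb) w (hWA' hw)
  have hel : IsElementaryAbelian p (B ⊔ W) :=
    CfsgLib.LocalP.isElementaryAbelian_sup (CfsgLib.LocalP.isElementaryAbelian_mono hA.2.1 inf_le_left) hWel hBW
  have h1 := hA.2.2 _ (sup_le (inf_le_left.trans hA.1) ((h.wMod_le_pCore D).trans h.pCore_le_T)) hel
  have h2 := CfsgLib.LocalP.card_mul_le_card_sup_mul_card_inf B W
  have h3 : B ⊓ W ≤ W ⊓ A := le_inf inf_le_right (inf_le_left.trans inf_le_left)
  have h4 : Nat.card B * Nat.card W ≤ Nat.card A * Nat.card ↥(W ⊓ A) :=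
    h2.trans (Nat.mul_le_mul h1 (Subgroup.card_le_of_le h3))
  have hVW := h.vMod_le_wMod
  haveI := hWel.1
  have h5 := card_sup_mul_inf (A := V) (B := W ⊓ A)
    (CfsgLib.MinParFF.normalizes_of_comm (V := W) hVW inf_le_left)
  have h6 : V ⊓ (W ⊓ A) = V ⊓ Subgroup.centralizer (A : Set X) := by
    rw [← inf_assoc, inf_eq_left.mpr hVW, h.inf_vMod_eq hA]
  rw [h6] at h5
  refine (Subgroup.eq_of_le_of_card_ge (sup_le hVW inf_le_left) ?_).ge
  refine Nat.le_of_mul_le_mul_right ?_
    (Nat.mul_pos (Nat.card_pos : 0 < Nat.card B) (Nat.card_pos : 0 < Nat.card ↥(V ⊓ Subgroup.centralizer (A : Set X))))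
  calc Nat.card W * (Nat.card B * Nat.card ↥(V ⊓ Subgroup.centralizer (A : Set X)))
      = (Nat.card B * Nat.card W) * Nat.card ↥(V ⊓ Subgroup.centralizer (A : Set X)) := by ring
    _ ≤ (Nat.card A * Nat.card ↥(W ⊓ A)) * Nat.card ↥(V ⊓ Subgroup.centralizer (A : Set X)) :=
        Nat.mul_le_mul_right _ h4
    _ = (Nat.card V * Nat.card B) * Nat.card ↥(W ⊓ A) := by rw [heq]; ring
    _ = (Nat.card V * Nat.card ↥(W ⊓ A)) * Nat.card B := by ring
    _ = (Nat.card ↥(V ⊔ W ⊓ A) * Nat.card ↥(V ⊓ Subgroup.centralizer (A : Set X))) * Nat.card B := by rw [h5]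
    _ = _ := by ring

end Core

end Thompson

section Baumann

variable {X : Type u} [Group X] {p : ℕ}
variable [Finite X] [Fact p.Prime] {T : Sylow p X} {M : Subgroup X}
  {r : ℕ} {E N : Fin r → Subgroup X}

namespace Core

variable (h : Core p T M) (D : Blocks p (vMod p (T : Subgroup X)) (T : Subgroup X) E N)

include h D

theorem mem_UU_iff {x : X} : x ∈ UU (T : Subgroup X) E ↔ x ∈ (T : Subgroup X) ∧ x ∈ ⨆ i, E i := by
  rw [← D.inf_iSup_E, Subgroup.mem_inf]

theorem thompson_le_UU : thompsonSubgroupOf p (T : Subgroup X) ≤ UU (T : Subgroup X) E := by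
  rw [CfsgLib.LocalP.thompsonSubgroupOf_eq_sSup]
  exact sSup_le fun A hA =>
    (D.offender_structure hA.1 (CfsgLib.LocalP.isElementaryAbelian_iff.mp hA.2.1).1 (h.card_le_of_maxElemIn hA)).2.1

theorem pCore_le_E (i : Fin r) : pCore p X ≤ E i := h.pCore_le_centralizer_vMod.trans (D.C_le i)

theorem UU_eq : UU (T : Subgroup X) E = thompsonSubgroupOf p (T : Subgroup X) ⊔ pCore p X := by
  haveI := CfsgLib.ConjFunctor.pCore_normal (G := X) p
  refine le_antisymm (iSup_le ?_) (sup_le (h.thompson_le_UU D) ?_)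
  · set S := thompsonSubgroupOf p (T : Subgroup X) ⊔ pCore p X
    have hone : ∃ i, (T : Subgroup X) ⊓ E i ≤ S := by
      obtain ⟨A, hA, hAQ⟩ := h.exists_offender
      obtain ⟨-, -, hsur⟩ := D.offender_structure hA.1 (CfsgLib.LocalP.isElementaryAbelian_iff.mp hA.2.1).1
        (h.card_le_of_maxElemIn hA)
      by_contra hcon
      push Not at hcon
      refine hAQ fun a ha => h.inf_centralizer_vMod.le ⟨hA.1 ha, D.faith a (hA.1 ha) fun i => ?_⟩
      rcases hsur i with h1 | h1
      · exact h1 ha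
      · exfalso
        refine hcon i (h1.trans (sup_le_sup (le_thompson hA) ?_))
        exact h.inf_centralizer_vMod.le
    obtain ⟨i, hi⟩ := hone
    intro j
    obtain ⟨t, ht, hE, -⟩ := D.trans i j
    intro x hx
    have h1 : t⁻¹ * x * t ∈ (T : Subgroup X) ⊓ E i := by
      refine Subgroup.mem_inf.mpr ⟨mul_mem (mul_mem (inv_mem ht) hx.1) ht, ?_⟩
      have h2 : x ∈ conjOf t (E i) := hE.ge hx.2
      exact mem_conjOf.mp h2
    have h3 : t * (t⁻¹ * x * t) * t⁻¹ ∈ conjOf t S := conj_mem_conjOf (hi h1)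
    have h4 : conjOf t S = S := by
      have hJ := mem_normalizer_iff_conjOf.mp (normalizer_le_thompson_normalizer (p := p) (T : Subgroup X) ht)
      have hQ : conjOf t (pCore p X) = pCore p X :=
        mem_normalizer_iff_conjOf.mp (by rw [Subgroup.normalizer_eq_top]; trivial)
      show Subgroup.map _ (_ ⊔ _) = _
      rw [Subgroup.map_sup]
      exact congrArg₂ (· ⊔ ·) hJ hQ
    rw [h4] at h3
    simpa [mul_assoc] using h3
  · exact (le_inf h.pCore_le_T h.pCore_le_centralizer_vMod).trans D.T_inf_C_le_UU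

theorem thompson_not_le' : ¬ UU (T : Subgroup X) E ≤ pCore p X := fun hle =>
  h.thompson_not_le ((h.thompson_le_UU D).trans hle)

theorem thompson_centralizes : thompsonSubgroupOf p (T : Subgroup X) ≤ baumannSubgroupOf p (T : Subgroup X) :=
  CfsgLib.BaumannBlock.thompsonSubgroupOf_le_baumann _

theorem wMod_eq : wMod p (T : Subgroup X) = vMod p (T : Subgroup X) ⊔ zThompson p (T : Subgroup X) := by
  set V := vMod p (T : Subgroup X)
  set W := wMod p (T : Subgroup X)
  set Z := zThompson p (T : Subgroup X)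
  have hW := h.wMod_el D
  refine le_antisymm ?_ (sup_le h.vMod_le_wMod Subgroup.le_normalClosure)
  set K := trivMod W V
  have hJK : thompsonSubgroupOf p (T : Subgroup X) ≤ K := by
    rw [CfsgLib.LocalP.thompsonSubgroupOf_eq_sSup]
    refine sSup_le fun A hA a ha => mem_trivMod.mpr fun w hw => ?_
    have hw' := h.wMod_le_sup D hA hw
    rw [← SetLike.mem_coe, Subgroup.normal_mul] at hw'
    obtain ⟨v, hv, c, hc, rfl⟩ := hw'
    have hca := (CfsgLib.LocalP.isElementaryAbelian_iff.mp hA.2.1).1 a ha c hc.2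
    have e : a * (v * c) * a⁻¹ * (v * c)⁻¹ = (a * v * a⁻¹) * v⁻¹ := by
      calc a * (v * c) * a⁻¹ * (v * c)⁻¹ = a * v * a⁻¹ * (a * c * a⁻¹) * c⁻¹ * v⁻¹ := by group
        _ = _ := by rw [hca]; group
    rw [e]
    exact mul_mem (Subgroup.Normal.conj_mem inferInstance v hv a) (inv_mem hv)
  have htop : K ⊔ (T : Subgroup X) = ⊤ := h.sup_T_eq_top fun hle =>
    h.thompson_not_le ((le_inf (CfsgLib.LocalP.thompsonSubgroupOf_le _) hJK).trans hle)
  haveI hn : (V ⊔ Z).Normal := by
    refine Subgroup.normalizer_eq_top_iff.mp (top_le_iff.mp (htop.ge.trans (sup_le ?_ ?_)))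
    · intro g hg
      refine mem_normalizer_iff_conjOf.mpr (Subgroup.eq_of_le_of_card_ge ?_ (card_conjOf _ _).ge)
      show Subgroup.map _ (V ⊔ Z) ≤ _
      rw [Subgroup.map_sup]
      refine sup_le ((conjOf_le_iff.mpr fun v hv => Subgroup.Normal.conj_mem inferInstance v hv g).trans le_sup_left)
        (conjOf_le_iff.mpr fun z hz => ?_)
      have h1 := mem_trivMod.mp hg z (Subgroup.le_normalClosure hz)
      have h2 := mul_mem (Subgroup.mem_sup_left (T := Z) h1) (Subgroup.mem_sup_right (S := V) hz)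
      simpa using h2
    · intro t ht
      refine mem_normalizer_iff_conjOf.mpr (Subgroup.eq_of_le_of_card_ge ?_ (card_conjOf _ _).ge)
      show Subgroup.map _ (V ⊔ Z) ≤ _
      rw [Subgroup.map_sup]
      refine sup_le ((conjOf_le_iff.mpr fun v hv => Subgroup.Normal.conj_mem inferInstance v hv t).trans le_sup_left)
        (le_trans ?_ le_sup_right)
      exact ((charIn_recipe (T : Subgroup X) (fun _ _ P => zThompson p P) fun _ _ _ _ f hf P => by
        rw [zThompson, zThompson, centerThompsonOf_map f hf, omegaOne_map f hf]).normalizer_le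
          (Subgroup.le_normalizer ht) |> mem_normalizer_iff_conjOf.mp).le
  exact Subgroup.normalClosure_le_normal (le_sup_right (a := V))

/-- `J(T)` acts trivially on `W` modulo the sum of the blocks. -/
theorem thompson_le_trivMod :
    haveI := D.iSup_normal.2
    thompsonSubgroupOf p (T : Subgroup X) ≤ trivMod (wMod p (T : Subgroup X)) (⨆ i, N i) := by
  haveI := D.iSup_normal.2
  haveI := D.Vel.1
  rw [CfsgLib.LocalP.thompsonSubgroupOf_eq_sSup]
  refine sSup_le fun A hA a ha => mem_trivMod.mpr fun w hw => ?_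
  have hw' := h.wMod_le_sup D hA hw
  rw [← SetLike.mem_coe, Subgroup.normal_mul] at hw'
  obtain ⟨v, hv, c, hc, rfl⟩ := hw'
  have hca := (CfsgLib.LocalP.isElementaryAbelian_iff.mp hA.2.1).1 a ha c hc.2
  have e : a * (v * c) * a⁻¹ * (v * c)⁻¹ = (a * v * a⁻¹) * v⁻¹ := by
    calc a * (v * c) * a⁻¹ * (v * c)⁻¹ = a * v * a⁻¹ * (a * c * a⁻¹) * c⁻¹ * v⁻¹ := by group
      _ = _ := by rw [hca]; group
  rw [e]
  have hv' : v ∈ (vMod p (T : Subgroup X) ⊓ Subgroup.centralizer ((⨆ i, E i : Subgroup X) : Set X)) ⊔ (⨆ i, N i) :=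
    D.gen.ge hv
  obtain ⟨c₀, hc₀, n, hn, rfl⟩ := CfsgLib.MinParFF.exists_mul_of_mem_sup (V := vMod p (T : Subgroup X))
    inf_le_left (iSup_le D.N_le) hv'
  have haE : a ∈ ⨆ i, E i := ((h.mem_UU_iff D).mp (h.thompson_le_UU D (le_thompson hA ha))).2
  have h1 := Subgroup.mem_centralizer_iff.mp hc₀.2 a haE
  have e2 : a * (c₀ * n) * a⁻¹ * (c₀ * n)⁻¹ = c₀ * ((a * n * a⁻¹) * n⁻¹) * c₀⁻¹ := by
    calc a * (c₀ * n) * a⁻¹ * (c₀ * n)⁻¹ = (a * c₀) * n * a⁻¹ * n⁻¹ * c₀⁻¹ := by group
      _ = _ := by rw [h1]; group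
  rw [e2]
  exact Subgroup.Normal.conj_mem inferInstance _ (mul_mem (Subgroup.Normal.conj_mem inferInstance n hn a) (inv_mem hn)) c₀

theorem baumann_le_UU : baumannSubgroupOf p (T : Subgroup X) ≤ UU (T : Subgroup X) E := by
  intro b hb
  obtain ⟨hbT, hbZ⟩ := mem_baumann_iff.mp hb
  refine D.mem_UU_of_fixes hbT fun i x hx hxU => ?_
  have hxV := D.N_le i hx
  have hxc : x ∈ Subgroup.centralizer (UU (T : Subgroup X) E : Set X) := by
    refine Subgroup.mem_centralizer_iff.mpr fun u hu => ?_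
    refine Subgroup.mem_centralizer_singleton_iff.mp ((iSup_le fun j y hy => ?_ : UU (T : Subgroup X) E ≤
      Subgroup.centralizer ({x} : Set X)) hu)
    rw [Subgroup.mem_centralizer_singleton_iff]
    by_cases hji : j = i
    · subst hji; exact hxU y hy
    · exact (Subgroup.mem_centralizer_iff.mp (D.cross i j (Ne.symm hji) hy.2) x hx).symm
  exact (hbZ x (h.mem_zThompson_of_centralizes (h.vMod_le_T hxV) (h.mem_vMod hxV).2.2
    (Subgroup.centralizer_le (h.thompson_le_UU D) hxc))).symm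

theorem baumann_inf_pCore :
    baumannSubgroupOf p (T : Subgroup X) ⊓ pCore p X =
      pCore p X ⊓ Subgroup.centralizer (wMod p (T : Subgroup X) : Set X) := by
  refine le_antisymm ?_ ?_
  · rintro b ⟨hbB, hbQ⟩
    refine ⟨hbQ, ?_⟩
    rw [h.wMod_eq D]
    refine (Subgroup.le_centralizer_iff.mp (sup_le ?_ ?_) : Subgroup.zpowers b ≤ _) (Subgroup.mem_zpowers b)
    · exact Subgroup.le_centralizer_iff.mp ((Subgroup.zpowers_le.mpr hbQ).trans h.pCore_le_centralizer_vMod)
    · intro z hz
      refine Subgroup.mem_centralizer_iff.mpr fun y hy => ?_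
      obtain ⟨k, rfl⟩ := hy
      exact (Commute.zpow_left (show Commute b z from ((mem_baumann_iff.mp hbB).2 z hz).symm) k).eq
  · rintro b ⟨hbQ, hbW⟩
    exact ⟨mem_baumann_iff.mpr ⟨h.pCore_le_T hbQ, fun z hz =>
      Subgroup.mem_centralizer_iff.mp hbW z (Subgroup.le_normalClosure hz)⟩, hbQ⟩

theorem baumann_le_sup :
    baumannSubgroupOf p (T : Subgroup X) ≤ thompsonSubgroupOf p (T : Subgroup X) ⊔
      (pCore p X ⊓ Subgroup.centralizer (wMod p (T : Subgroup X) : Set X)) := by
  haveI := CfsgLib.ConjFunctor.pCore_normal (G := X) p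
  intro b hb
  have h1 := h.baumann_le_UU D hb
  rw [h.UU_eq D, ← SetLike.mem_coe, Subgroup.mul_normal] at h1
  obtain ⟨j, hj, q, hq, rfl⟩ := h1
  have hqB : q ∈ baumannSubgroupOf p (T : Subgroup X) := by
    simpa using mul_mem (inv_mem (CfsgLib.BaumannBlock.thompsonSubgroupOf_le_baumann _ hj)) hb
  exact Subgroup.mul_mem_sup hj ((h.baumann_inf_pCore D).le ⟨hqB, hq⟩)

theorem lMod_le_trivMod :
    haveI := D.iSup_normal.2
    lMod p (T : Subgroup X) ≤ trivMod (wMod p (T : Subgroup X)) (⨆ i, N i) := by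
  haveI := D.iSup_normal.2
  refine Subgroup.normalClosure_le_normal ((h.baumann_le_sup D).trans (sup_le (h.thompson_le_trivMod D) ?_))
  rintro x ⟨-, hx⟩
  refine mem_trivMod.mpr fun w hw => ?_
  rw [← Subgroup.mem_centralizer_iff.mp hx w hw, mul_inv_cancel_right, mul_inv_cancel]
  exact one_mem _

theorem lMod_le_iSup : lMod p (T : Subgroup X) ≤ ⨆ i, E i := by
  haveI := D.iSup_normal.1
  exact Subgroup.normalClosure_le_normal fun b hb => ((h.mem_UU_iff D).mp (h.baumann_le_UU D hb)).2

theorem lMod_le_trivMod_pCore :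
    haveI := CfsgLib.ConjFunctor.pCore_normal (G := X) p
    lMod p (T : Subgroup X) ≤
      trivMod (pCore p X) (pCore p X ⊓ Subgroup.centralizer (wMod p (T : Subgroup X) : Set X)) := by
  haveI := CfsgLib.ConjFunctor.pCore_normal (G := X) p
  refine Subgroup.normalClosure_le_normal fun b hb => mem_trivMod.mpr fun q hq => ?_
  rw [← h.baumann_inf_pCore D]
  refine Subgroup.mem_inf.mpr ⟨?_, mul_mem (Subgroup.Normal.conj_mem inferInstance q hq b) (inv_mem hq)⟩
  have h1 : q * b⁻¹ * q⁻¹ ∈ baumannSubgroupOf p (T : Subgroup X) :=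
    (Subgroup.mem_normalizer_iff.mp ((charIn_baumann (p := p) (T : Subgroup X)).normalizer_le
      (Subgroup.le_normalizer (h.pCore_le_T hq))) _).mp (inv_mem hb)
  rw [show b * q * b⁻¹ * q⁻¹ = b * (q * b⁻¹ * q⁻¹) by group]
  exact mul_mem hb h1

omit D in
theorem lMod_sup_T : lMod p (T : Subgroup X) ⊔ (T : Subgroup X) = ⊤ :=
  h.sup_T_eq_top fun hle => h.thompson_not_le (le_trans (le_inf (CfsgLib.LocalP.thompsonSubgroupOf_le _)
    ((CfsgLib.BaumannBlock.thompsonSubgroupOf_le_baumann _).trans (baumann_le_lMod _))) hle)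

/-- The Thompson subgroup covers each `T ∩ E i` on its block. -/
theorem exists_thompson_sameOn {i : Fin r} {u : X} (hu : u ∈ (T : Subgroup X) ⊓ E i) :
    ∃ j ∈ thompsonSubgroupOf p (T : Subgroup X), j ∈ E i ∧ SameOn (N i) j u := by
  haveI := CfsgLib.ConjFunctor.pCore_normal (G := X) p
  have h1 : u ∈ thompsonSubgroupOf p (T : Subgroup X) ⊔ pCore p X :=
    h.UU_eq D ▸ le_iSup (fun k => (T : Subgroup X) ⊓ E k) i hu
  rw [← SetLike.mem_coe, Subgroup.mul_normal] at h1
  obtain ⟨j, hj, q, hq, rfl⟩ := h1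
  refine ⟨j, hj, ?_, fun x hx => ?_⟩
  · have h2 := mul_mem (Subgroup.mem_inf.mp hu).2 (inv_mem (h.pCore_le_E D i hq))
    simpa using h2
  · have h3 := Subgroup.mem_centralizer_iff.mp (h.pCore_le_centralizer_vMod hq) x (D.N_le i hx)
    calc j * x * j⁻¹ = j * (x * q * q⁻¹) * j⁻¹ := by group
      _ = j * (q * x * q⁻¹) * j⁻¹ := by rw [h3]
      _ = _ := by group

open scoped MatrixGroups in
/-- A normal subgroup containing `J(T)` induces all of `E i` on the block `i`. -/
theorem covers {H : Subgroup X} [H.Normal] (hJ : thompsonSubgroupOf p (T : Subgroup X) ≤ H) (i : Fin r)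
    {e : X} (he : e ∈ E i) : ∃ k ∈ H ⊓ E i, SameOn (N i) k e := by
  obtain ⟨F, _, _, _, ⟨C⟩⟩ := exists_coord (T : Subgroup X) (D.nat i)
  set R := (H.subgroupOf (E i)).map C.ρ with hR
  haveI : R.Normal := (Subgroup.Normal.comap ‹H.Normal› (E i).subtype).map _ C.ρ_surj
  set U' := (((T : Subgroup X) ⊓ E i).subgroupOf (E i)).map C.ρ
  have hUR : U' ≤ R := by
    rintro _ ⟨u, hu, rfl⟩
    obtain ⟨j, hj, hjE, hju⟩ := h.exists_thompson_sameOn D (i := i) (u := (u : X)) hu
    refine ⟨⟨j, hjE⟩, hJ hj, Subtype.ext (Matrix.ext_of_mulVec_single fun k => ?_)⟩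
    obtain ⟨x, hx⟩ := C.crd.surjective (Pi.single k 1)
    rw [← hx]
    have hmem : (u : X) * x * (u : X)⁻¹ ∈ N i := (Subgroup.mem_normalizer_iff.mp (D.E_norm i u.2) _).mp x.2
    rw [← C.act_ρ u x ⟨_, hmem⟩ rfl, ← C.act_ρ ⟨j, hjE⟩ x ⟨_, hmem⟩ (hju x x.2).symm]
  have hidx : ¬ p ∣ R.index := fun hd => by
    refine D.sylow i ?_
    exact (hd.trans (Subgroup.index_dvd_of_le hUR)).trans (Subgroup.index_map_dvd _ C.ρ_surj)
  have hp' : ∀ g : SL(2, F), g ^ p = 1 → g ∈ R := by
    intro g hg
    rw [← QuotientGroup.eq_one_iff]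
    refine orderOf_eq_one_iff.mp (Nat.eq_one_of_dvd_coprimes
      ((Fact.out : p.Prime).coprime_iff_not_dvd.mpr hidx) ?_ ?_)
    · refine orderOf_dvd_of_pow_eq_one ?_
      rw [← QuotientGroup.mk_pow, hg, QuotientGroup.mk_one]
    · rw [Subgroup.index_eq_card]
      exact orderOf_dvd_natCard _
  have hup : ∀ a : F, CfsgLib.PushingUp.upperT a ∈ R := fun a => hp' _ (by
    have key : ∀ n : ℕ, CfsgLib.PushingUp.upperT a ^ n = CfsgLib.PushingUp.upperT ((n : F) * a) := by
      intro n
      induction n with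
      | zero => ext k l; fin_cases k <;> fin_cases l <;> simp [CfsgLib.PushingUp.upperT_coe]
      | succ n ih => rw [pow_succ, ih, CfsgLib.PushingUp.upperT_mul]; congr 1; push_cast; ring
    rw [key, CharP.cast_eq_zero, zero_mul]
    ext k l; fin_cases k <;> fin_cases l <;> simp [CfsgLib.PushingUp.upperT_coe])
  have hlo : ∀ a : F, CfsgLib.PushingUp.lowerT a ∈ R := fun a => hp' _ (by
    have key : ∀ n : ℕ, CfsgLib.PushingUp.lowerT a ^ n = CfsgLib.PushingUp.lowerT ((n : F) * a) := by
      intro n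
      induction n with
      | zero => ext k l; fin_cases k <;> fin_cases l <;> simp [CfsgLib.PushingUp.lowerT_coe]
      | succ n ih =>
        rw [pow_succ, ih]
        ext k l
        fin_cases k <;> fin_cases l <;>
          simp [CfsgLib.PushingUp.lowerT_coe, Matrix.SpecialLinearGroup.coe_mul, Matrix.mul_apply, Fin.sum_univ_two] <;>
          ring
    rw [key, CharP.cast_eq_zero, zero_mul]
    ext k l; fin_cases k <;> fin_cases l <;> simp [CfsgLib.PushingUp.lowerT_coe])
  obtain ⟨k, hk, hke⟩ := CfsgLib.PushingUp44.mem_of_upper_lower hup hlo (C.ρ ⟨e, he⟩)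
  refine ⟨k, ⟨hk, k.2⟩, fun x hx => ?_⟩
  have hmk : (k : X) * x * (k : X)⁻¹ ∈ N i := (Subgroup.mem_normalizer_iff.mp (D.E_norm i k.2) _).mp hx
  have hme : e * x * e⁻¹ ∈ N i := (Subgroup.mem_normalizer_iff.mp (D.E_norm i he) _).mp hx
  have h1 := C.act_ρ k ⟨x, hx⟩ ⟨_, hmk⟩ rfl
  have h2 := C.act_ρ ⟨e, he⟩ ⟨x, hx⟩ ⟨_, hme⟩ rfl
  rw [hke, ← h2] at h1
  exact congrArg Subtype.val (C.crd.injective h1)

theorem lMod_inf_pCore :
    lMod p (T : Subgroup X) ⊓ pCore p X ≤
      pCore p X ⊓ Subgroup.centralizer (wMod p (T : Subgroup X) : Set X) := by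
  haveI := D.iSup_normal.2
  haveI := CfsgLib.ConjFunctor.pCore_normal (G := X) p
  rintro x ⟨hxL, hxQ⟩
  refine ⟨hxQ, ?_⟩
  set W := wMod p (T : Subgroup X) with hWdef
  set L := lMod p (T : Subgroup X)
  have hab := (CfsgLib.LocalP.isElementaryAbelian_iff.mp (h.wMod_el D)).1
  have hNW : (⨆ i, N i) ≤ W := (iSup_le D.N_le).trans h.vMod_le_wMod
  have hxn : ∀ n ∈ (⨆ i, N i : Subgroup X), x * n = n * x := fun n hn =>
    (Subgroup.mem_centralizer_iff.mp (h.pCore_le_centralizer_vMod hxQ) n (iSup_le D.N_le hn)).symm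
  have hzero : ∀ z ∈ zThompson p (T : Subgroup X), x * z * x⁻¹ * z⁻¹ = 1 := by
    intro z hz
    have hzW : z ∈ W := Subgroup.le_normalClosure hz
    set c := x * z * x⁻¹ * z⁻¹ with hc
    have hcN : c ∈ ⨆ i, N i := mem_trivMod.mp (h.lMod_le_trivMod D hxL) z hzW
    have hcfix : c ∈ (⨆ i, N i) ⊓ Subgroup.centralizer (L : Set X) := by
      refine ⟨hcN, Subgroup.mem_centralizer_iff.mpr fun l hl => ?_⟩
      have hn := mem_trivMod.mp (h.lMod_le_trivMod D hl) z hzW
      have hq₀ := (mem_trivMod.mp (h.lMod_le_trivMod_pCore D hl) x hxQ).2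
      set n := l * z * l⁻¹ * z⁻¹ with hndef
      set q₀ := l * x * l⁻¹ * x⁻¹ with hqdef
      have hxzW : x * z * x⁻¹ ∈ W := Subgroup.Normal.conj_mem inferInstance z hzW x
      have hnz : n * z ∈ W := mul_mem (hNW hn) hzW
      have e1 : l * c * l⁻¹ = (q₀ * x) * (n * z) * (q₀ * x)⁻¹ * (n * z)⁻¹ := by
        simp only [hc, hndef, hqdef]; group
      have e2 : x * (n * z) * x⁻¹ = n * (c * z) := by
        calc x * (n * z) * x⁻¹ = (x * n) * (x⁻¹ * (x * z * x⁻¹)) := by group
          _ = (n * x) * (x⁻¹ * (x * z * x⁻¹)) := by rw [hxn n hn]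
          _ = _ := by simp only [hc]; group
      have e3 : (q₀ * x) * (n * z) * (q₀ * x)⁻¹ = x * (n * z) * x⁻¹ := by
        have h5 : x * (n * z) * x⁻¹ ∈ W := Subgroup.Normal.conj_mem inferInstance _ hnz x
        calc (q₀ * x) * (n * z) * (q₀ * x)⁻¹ = q₀ * (x * (n * z) * x⁻¹) * q₀⁻¹ := by group
          _ = _ := by rw [← Subgroup.mem_centralizer_iff.mp hq₀ _ h5, mul_inv_cancel_right]
      have e4 : l * c * l⁻¹ = c := by
        rw [e1, e3, e2]
        calc n * (c * z) * (n * z)⁻¹ = n * c * n⁻¹ := by group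
          _ = c := by rw [hab n (hNW hn) c (hNW hcN), mul_inv_cancel_right]
      calc l * c = l * c * l⁻¹ * l := by group
        _ = c * l := by rw [e4]
    rw [D.no_fixed fun i e he => ?_, Subgroup.mem_bot] at hcfix
    · exact hcfix
    · obtain ⟨k, hk, hke⟩ := h.covers D (H := L)
        ((CfsgLib.BaumannBlock.thompsonSubgroupOf_le_baumann _).trans (baumann_le_lMod _)) i he
      exact ⟨k, hk.1, hke, fun j hj => D.cross j i hj hk.2⟩
  rw [hWdef, h.wMod_eq D]
  refine (Subgroup.le_centralizer_iff.mp (sup_le ?_ ?_) : Subgroup.zpowers x ≤ _) (Subgroup.mem_zpowers x)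
  · exact Subgroup.le_centralizer_iff.mp ((Subgroup.zpowers_le.mpr hxQ).trans h.pCore_le_centralizer_vMod)
  · intro z hz
    refine Subgroup.mem_centralizer_iff.mpr fun y hy => ?_
    obtain ⟨k, rfl⟩ := hy
    refine (Commute.zpow_left (show Commute x z from ?_) k).eq
    exact mul_inv_eq_iff_eq_mul.mp (mul_inv_eq_one.mp (hzero z hz))

theorem inf_lMod : (T : Subgroup X) ⊓ lMod p (T : Subgroup X) = baumannSubgroupOf p (T : Subgroup X) := by
  haveI := CfsgLib.ConjFunctor.pCore_normal (G := X) p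
  refine le_antisymm ?_ (le_inf (CfsgLib.BaumannBlock.baumannSubgroupOf_le _) (baumann_le_lMod _))
  rintro x ⟨hxT, hxL⟩
  have h1 : x ∈ UU (T : Subgroup X) E := (h.mem_UU_iff D).mpr ⟨hxT, h.lMod_le_iSup D hxL⟩
  rw [h.UU_eq D, ← SetLike.mem_coe, Subgroup.mul_normal] at h1
  obtain ⟨j, hj, q, hq, rfl⟩ := h1
  have hjB := CfsgLib.BaumannBlock.thompsonSubgroupOf_le_baumann (p := p) _ hj
  have hqL : q ∈ lMod p (T : Subgroup X) := by
    simpa using mul_mem (inv_mem (baumann_le_lMod _ hjB)) hxL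
  exact mul_mem hjB ((h.baumann_inf_pCore D).ge (h.lMod_inf_pCore D ⟨hqL, hq⟩)).1

theorem centralizer_lMod_le :
    lMod p (T : Subgroup X) ⊓ Subgroup.centralizer
        ((pCore p X ⊓ Subgroup.centralizer (wMod p (T : Subgroup X) : Set X) : Subgroup X) : Set X) ≤
      pCore p X ⊓ Subgroup.centralizer (wMod p (T : Subgroup X) : Set X) := by
  haveI := CfsgLib.ConjFunctor.pCore_normal (G := X) p
  set Q₀ := pCore p X ⊓ Subgroup.centralizer (wMod p (T : Subgroup X) : Set X) with hQ₀
  set K := lMod p (T : Subgroup X) ⊓ Subgroup.centralizer (Q₀ : Set X)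
  have hKp : IsPGroup p K := by
    refine CfsgLib.LocalP.isPGroup_of_forall_coprime _ fun x hx hcop => ?_
    refine CfsgLib.LocalP.eq_one_of_centralizes_pCore h.constrained hcop fun q hq => ?_
    have hxL : x ∈ lMod p (T : Subgroup X) := (Subgroup.mem_inf.mp hx).1
    have h2 : ⁅q, x⁆ ∈ Q₀ := by
      have h1 : (x * q * x⁻¹ * q⁻¹)⁻¹ ∈ Q₀ := inv_mem (mem_trivMod.mp (h.lMod_le_trivMod_pCore D hxL) q hq)
      rw [show ⁅q, x⁆ = (x * q * x⁻¹ * q⁻¹)⁻¹ by rw [commutatorElement_def]; group]
      exact h1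
    obtain ⟨k, hk⟩ := (CfsgLib.ConjFunctor.isPGroup_pCore (G := X) p) ⟨_, h2.1⟩
    have hqx := CfsgLib.PushingUp44.commute_of_coprime_comm (a := q) hcop
      (Subgroup.mem_centralizer_iff.mp (Subgroup.mem_inf.mp hx).2 _ h2) ⟨k, congrArg Subtype.val hk⟩
    exact hqx.symm.eq
  haveI : K.Normal := inferInstance
  intro x hx
  exact h.lMod_inf_pCore D ⟨(Subgroup.mem_inf.mp hx).1, CfsgLib.LocalP.le_pCore inferInstance hKp hx⟩

end Core

end Baumann

end CfsgLib.TransferThree23
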